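import Mathlib
import Cfsg.Agent.Lib.Coprime.InvNilpMax
import Cfsg.Agent.Lib.Core.Frattini

/-!
# Coprime action with all proper invariant subgroups nilpotent
-/

set_option autoImplicit false
set_option linter.unusedSectionVars false

namespace Cfsg.Agent.Coprime

open Subgroup
open scoped commutatorElement Pointwise

universe u v

theorem FT.exists_inv_sylow_top (ft : FT.{u}) {G : Type*} [Group G] [Finite G] {A : Type*}
    [Group A] [Finite A] (φ : A →* MulAut G) (hcop : (Nat.card A).Coprime (Nat.card G)) (p : ℕ)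
    [Fact p.Prime] : ∃ P : Sylow p G, Inv φ (P : Subgroup G) := by
  obtain ⟨Q, hQ, hQi, -⟩ := ft.exists_inv_sylow (φ := φ) (K := ⊤) (M := ⊥) p inv_top inv_bot bot_le
    (by rwa [card_top]) (by rw [card_bot]; exact Nat.coprime_one_left _)
  obtain ⟨S, rfl⟩ := hQ.exists_sylow_top
  exact ⟨S, hQi⟩

theorem FT.invSchmidt_aux (ft : FT.{u}) {A : Type*} [Group A] [Finite A] (G : Type v) [Group G]
    [Finite G] : ∀ (φ : A →* MulAut G), (Nat.card A).Coprime (Nat.card G) →
      (∀ H : Subgroup G, H ≠ ⊤ → Inv φ H → Group.IsNilpotent H) → Group.IsSolvable G := by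
  refine Core.induction_on_card (P := fun G _ _ => ∀ (φ : A →* MulAut G),
    (Nat.card A).Coprime (Nat.card G) →
      (∀ H : Subgroup G, H ≠ ⊤ → Inv φ H → Group.IsNilpotent H) → Group.IsSolvable G) ?_ G
  intro G _ _ ih φ hcop h
  by_cases hN : ∃ N : Subgroup G, N.Normal ∧ Inv φ N ∧ N ≠ ⊥ ∧ N ≠ ⊤
  · obtain ⟨N, hN, hNi, hNb, hNt⟩ := hN
    have hs := QuotientGroup.mk'_surjective N
    have h1 := ih (G ⧸ N) (Core.card_quotient_lt hNb) (quotAutHom φ N hNi)
      (Nat.Coprime.coprime_dvd_right (card_quotient_dvd_card N) hcop) (fun H h2 h3 => by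
        rw [← map_comap_eq_self_of_surjective hs H]
        exact Core.isNilpotent_map (h _ (fun h => h2 (by
          rw [← map_comap_eq_self_of_surjective hs H, h, map_top_of_surjective _ hs]))
          (hNi.comap_mk h3)) _)
    have := h N hNt hNi
    exact (Group.isSolvable_iff_subgroup_quotient N).mpr ⟨inferInstance, h1⟩
  push Not at hN
  by_cases h2 : IsPGroup 2 G
  · exact isSolvable_of_isPGroup h2
  obtain ⟨p, hp, hpd, hp2⟩ : ∃ p : ℕ, p.Prime ∧ p ∣ Nat.card G ∧ p ≠ 2 := by
    by_contra hcon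
    push Not at hcon
    exact h2 (IsPGroup.of_card (Nat.eq_prime_pow_of_unique_prime_dvd Nat.card_pos.ne'
      fun hd hdd => hcon _ hd hdd))
  haveI := Fact.mk hp
  by_cases hpG : IsPGroup p G
  · exact isSolvable_of_isPGroup hpG
  obtain ⟨S, hS⟩ := ft.exists_inv_sylow_top φ hcop p
  have hSb : (S : Subgroup G) ≠ ⊥ := S.ne_bot_of_dvd_card hpd
  have hnorm : ∀ X : Subgroup G, X ≤ S → X ≠ ⊥ → Inv φ X →
      HasNormalPComplement p (normalizer (X : Set G)) := fun X hX hXb hXi => by
    refine Transfer.hasNormalPComplement_of_isNilpotent (h _ (fun h0 => hpG ?_) hXi.normalizer)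
    have := hN X (normalizer_eq_top_iff.1 h0) hXi hXb
    exact (S.2.to_le hX).of_equiv ((MulEquiv.subgroupCongr this).trans topEquiv)
  have hc : HasNormalPComplement p G := by
    refine Transfer.thompson_normal_p_complement hp2 S ?_ ?_
    · exact Transfer.hasNormalPComplement_of_le (centralizer_le_normalizer _)
        (hnorm _ inf_le_left (Transfer.inf_centralizer_self_ne_bot S.2 hSb)
          (hS.inf hS.centralizer))
    · exact hnorm _ (Transfer.thompsonSubgroupOf_le _)
        (Transfer.thompsonSubgroupOf_ne_bot S.2 hSb) hS.thompsonSubgroupOf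
  have h3 := hN (pResidual p G) inferInstance (inv_of_characteristic _)
    (fun h0 => hpG (Transfer.isPGroup_iff_pResidual_eq_bot.2 h0))
  have h4 := Transfer.hasNormalPComplement_iff_not_dvd_pResidual.1 hc
  rw [h3, card_top] at h4
  exact absurd hpd h4

theorem exists_pResidual_ne_top {G : Type*} [Group G] [Finite G] [Nontrivial G]
    (h : Group.IsSolvable G) : ∃ p : ℕ, p.Prime ∧ pResidual p G ≠ ⊤ := by
  obtain ⟨M, hM, hle⟩ := (eq_top_or_exists_le_coatom (commutator G)).resolve_left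
    (Group.IsSolvable.commutator_lt_top_of_nontrivial G).ne
  haveI : M.Normal := ⟨fun n hn g => by
    have : g * n * g⁻¹ = ⁅g, n⁆ * n := by rw [commutatorElement_def]; group
    rw [this]
    exact M.mul_mem (hle (commutator_mem_commutator (mem_top _) (mem_top _))) hn⟩
  have hp := Core.prime_index_of_isCoatom_of_normal hM
  exact ⟨_, hp, fun h0 => hM.1 (top_le_iff.1 (h0 ▸
    Transfer.pResidual_le_of_index_eq_pow (p := M.index) M (pow_one _).symm))⟩

/-- Schmidt's theorem for coprime actions. -/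
theorem FT.inv_schmidt (ft : FT.{u}) {G A : Type*} [Group G] [Finite G] [Group A] [Finite A]
    (φ : A →* MulAut G) (hcop : (Nat.card A).Coprime (Nat.card G))
    (h : ∀ H : Subgroup G, H ≠ ⊤ → Inv φ H → Group.IsNilpotent H) (hG : ¬ Group.IsNilpotent G) :
    Group.IsSolvable G ∧
      (∃ p q a b : ℕ, p.Prime ∧ q.Prime ∧ p ≠ q ∧ Nat.card G = p ^ a * q ^ b) ∧
      ∃ (p : ℕ) (P : Sylow p G), p.Prime ∧ p ∣ Nat.card G ∧ (P : Subgroup G).Normal ∧
        Inv φ (P : Subgroup G) := by
  have hsol := ft.invSchmidt_aux G φ hcop h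
  refine ⟨hsol, ?_⟩
  haveI : Nontrivial G := by
    by_contra hn
    rw [not_nontrivial_iff_subsingleton] at hn
    exact hG inferInstance
  obtain ⟨p, hp, hpt⟩ := exists_pResidual_ne_top hsol
  haveI := Fact.mk hp
  have hnil := h _ hpt (inv_of_characteristic _)
  have hnormal : ∀ (q : ℕ) (_ : Fact q.Prime), q ≠ p → ∀ Q : Sylow q G,
      (Q : Subgroup G).Normal := by
    intro q hq hqp Q
    have h1 : (Q : Subgroup G) ≤ pCore q G := by
      refine Core.le_pCore_of_le_nilpotent_normal hnil Q.2 (Transfer.le_pResidual_of_coprime ?_)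
      obtain ⟨k, hk⟩ := IsPGroup.iff_card.1 Q.2
      rw [hk]
      exact Nat.Coprime.pow_left _ ((Nat.coprime_primes hq.out hp).2 hqp)
    rw [le_antisymm h1 (Core.pCore_le_sylow Q)]
    infer_instance
  have hinv : ∀ (q : ℕ) (_ : Fact q.Prime), q ≠ p → ∀ Q : Sylow q G, Inv φ (Q : Subgroup G) := by
    intro q hq hqp Q
    haveI := hnormal q hq hqp Q
    haveI := Q.characteristic_of_normal this
    exact inv_of_characteristic _
  obtain ⟨P, hP⟩ := ft.exists_inv_sylow_top φ hcop p
  obtain ⟨q, hq, hqp, Q, hPQ⟩ : ∃ (q : ℕ) (_ : Fact q.Prime), q ≠ p ∧ ∃ Q : Sylow q G,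
      (P : Subgroup G) ⊔ Q = ⊤ := by
    by_contra hcon
    push Not at hcon
    refine hG (Core.isNilpotent_of_exists_sylow_normal fun q hq => ?_)
    by_cases hqp : q = p
    · subst hqp
      refine ⟨P, normalizer_eq_top_iff.1 (Core.eq_top_of_forall_sylow_le fun r hr => ?_)⟩
      by_cases hrq : r = q
      · subst hrq
        exact ⟨P, le_normalizer⟩
      · obtain ⟨R⟩ : Nonempty (Sylow r G) := inferInstance
        have h1 := h _ (hcon r hr hrq R) (hP.sup (hinv r hr hrq R))
        exact ⟨R, le_sup_right.trans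
          ((Transfer.isSylowIn_of_sylow_le P le_sup_left).le_normalizer_of_isNilpotent h1)⟩
    · obtain ⟨Q⟩ : Nonempty (Sylow q G) := inferInstance
      exact ⟨Q, hnormal q hq hqp Q⟩
  haveI := hnormal q hq hqp Q
  obtain ⟨a, ha⟩ := IsPGroup.iff_card.1 P.2
  obtain ⟨b, hb⟩ := IsPGroup.iff_card.1 Q.2
  have hcard : Nat.card G = p ^ a * q ^ b := by
    rw [← card_top (G := G), ← hPQ, ← ha, ← hb]
    refine Core.card_sup_of_disjoint le_normalizer_of_normal (inf_eq_bot_of_coprime' ?_)
    rw [ha, hb]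
    exact Nat.coprime_pow_primes _ _ hp hq.out (Ne.symm hqp)
  refine ⟨⟨p, q, a, b, hp, hq.out, Ne.symm hqp, hcard⟩, q, Q, hq.out, ?_, this, hinv q hq hqp Q⟩
  rw [hcard]
  refine Dvd.dvd.mul_left (dvd_pow_self q ?_) _
  rintro rfl
  rw [pow_zero, mul_one] at hcard
  exact hG (IsPGroup.of_card hcard).isNilpotent

/-- Every proper invariant subgroup lies in a maximal one. -/
theorem isNilpotent_of_forall_max {G A : Type*} [Group G] [Finite G] [Group A]
    (φ : A →* MulAut G)
    (hmax : ∀ H : Subgroup G, H ≠ ⊤ → Inv φ H → (∀ K : Subgroup G, H < K → Inv φ K → K = ⊤) →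
      Group.IsNilpotent H) (H : Subgroup G) (h1 : H ≠ ⊤) (h2 : Inv φ H) :
    Group.IsNilpotent H := by
  obtain ⟨M, hHM, ⟨hM1, hM2⟩, hM⟩ := Core.exists_maximal_ge
    (P := fun K : Subgroup G => K ≠ ⊤ ∧ Inv φ K) ⟨h1, h2⟩
  refine Core.isNilpotent_of_le (hmax M hM1 hM2 fun K hK hKi => ?_) hHM
  by_contra hne
  exact hK.ne' (hM K ⟨hne, hKi⟩ hK.le)

end Cfsg.Agent.Coprime
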