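import Mathlib
import Cfsg.Agent.Lib.Coprime.Hall
import Cfsg.Agent.Lib.Core.MinNormal
import Cfsg.Agent.Lib.Frob.TwoFrob

/-!
# Lucido's three primes lemma
-/

set_option autoImplicit false

namespace Cfsg.Agent.Coprime

open Subgroup

variable {G : Type*} [Group G] [Finite G]

theorem dvd_card_of_isPiHall {π : Set ℕ} {L : Subgroup G} (h : IsPiHall π L) {t : ℕ} (ht : t.Prime)
    (htπ : t ∈ π) (hd : t ∣ Nat.card G) : t ∣ Nat.card L := by
  rw [← L.card_mul_index] at hd
  exact ((Nat.Prime.dvd_mul ht).1 hd).resolve_right (h.2 t ht htπ)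

theorem exists_elemAb_normal [Nontrivial G] (h : Group.IsSolvable G) :
    ∃ s : ℕ, s.Prime ∧ s ∣ Nat.card G ∧ ∃ V : Subgroup G, V.Normal ∧ V ≠ ⊥ ∧
      IsElementaryAbelian s V := by
  obtain ⟨V, hV⟩ := Core.exists_isMinNormal (G := G)
  obtain ⟨s, hs, h1⟩ := hV.exists_isElementaryAbelian inferInstance
  refine ⟨s, hs, ?_, V, hV.normal, hV.ne_bot, h1⟩
  obtain ⟨v, hv, v1⟩ := (bot_or_exists_ne_one V).resolve_left hV.ne_bot
  have := Fact.mk hs
  exact orderOf_eq_prime (h1.2 v hv) v1 ▸ orderOf_dvd_natCard v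

theorem nontrivial_of_prime_dvd_card {s : ℕ} (hs : s.Prime) (h : s ∣ Nat.card G) : Nontrivial G :=
  Finite.one_lt_card_iff_nontrivial.1 (hs.one_lt.trans_le (Nat.le_of_dvd Nat.card_pos h))

theorem exists_orderOf_eq_of_subgroup {H : Subgroup G} {n : ℕ} (h : ∃ g : H, orderOf g = n) :
    ∃ g : G, orderOf g = n :=
  let ⟨g, hg⟩ := h; ⟨g, by rwa [Subgroup.orderOf_coe]⟩

/-- A solvable Frobenius complement has a complete prime graph. -/
theorem exists_orderOf_eq_mul_of_isFC (hs : Group.IsSolvable G) (h : Frob.IsFC G) {q r : ℕ}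
    (hq : q.Prime) (hr : r.Prime) (hqr : q ≠ r) (h1 : q ∣ Nat.card G) (h2 : r ∣ Nat.card G) :
    ∃ g : G, orderOf g = q * r := by
  obtain ⟨L, hL⟩ := hall_exists {q, r} hs
  have h1' := dvd_card_of_isPiHall hL hq (by simp) h1
  have h2' := dvd_card_of_isPiHall hL hr (by simp) h2
  have := nontrivial_of_prime_dvd_card hq h1'
  obtain ⟨s, hs, hsd, V, hVn, hV, hVe⟩ := exists_elemAb_normal (G := L) inferInstance
  have hc := (h.subgroup L).isCyclic_of_pow_eq_one hs hVe.2
  obtain ⟨b, hb⟩ := V.isCyclic_iff_exists_zpowers_eq_top.1 hc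
  have hb1 : b ≠ 1 := by
    rintro rfl
    exact hV (by rw [← hb, zpowers_one_eq_bot])
  have := Fact.mk hs
  have hbo : orderOf b = s := orderOf_eq_prime (hVe.2 b (hb ▸ mem_zpowers b)) hb1
  have key : ∀ t : ℕ, t.Prime → t ≠ s → t ∣ Nat.card L → ∃ g : G, orderOf g = t * s := by
    intro t ht hts hd
    have := Fact.mk ht
    obtain ⟨a, ha⟩ := exists_prime_orderOf_dvd_card' t hd
    have hc := (h.subgroup L).commute_of_prime (ha ▸ ht) (hbo ▸ hs)
      (by rw [hb]; exact le_normalizer_of_normal (mem_top a))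
    exact exists_orderOf_eq_of_subgroup (Frob.exists_orderOf_eq_mul_of_commute hc
      ((Nat.coprime_primes ht hs).2 hts) (ha ▸ dvd_rfl) (hbo ▸ dvd_rfl))
  rcases hL.1 s hs hsd with rfl | rfl
  · rw [mul_comm]; exact key r hr hqr.symm h2'
  · exact key q hq hqr h1'

/-- **Lucido**: among three prime divisors of the order of a solvable group, two are joined in the
prime graph. -/
theorem lucido (hs : Group.IsSolvable G) {p q r : ℕ} (hp : p.Prime) (hq : q.Prime) (hr : r.Prime)
    (hpq : p ≠ q) (hpr : p ≠ r) (hqr : q ≠ r) (h1 : p ∣ Nat.card G) (h2 : q ∣ Nat.card G)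
    (h3 : r ∣ Nat.card G) :
    (∃ g : G, orderOf g = p * q) ∨ (∃ g : G, orderOf g = p * r) ∨ ∃ g : G, orderOf g = q * r := by
  obtain ⟨L, hL⟩ := hall_exists {p, q, r} hs
  have h1' := dvd_card_of_isPiHall hL hp (by simp) h1
  have h2' := dvd_card_of_isPiHall hL hq (by simp) h2
  have h3' := dvd_card_of_isPiHall hL hr (by simp) h3
  have := nontrivial_of_prime_dvd_card hq h2'
  obtain ⟨s, hs, hsd, V, hVn, hV, hVe⟩ := exists_elemAb_normal (G := L) inferInstance
  have := Fact.mk hs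
  have key : ∀ t u : ℕ, t.Prime → u.Prime → t ≠ u → s ≠ t → s ≠ u → t ∣ Nat.card L →
      u ∣ Nat.card L → (∃ g : G, orderOf g = s * t) ∨ (∃ g : G, orderOf g = s * u) ∨
        ∃ g : G, orderOf g = t * u := by
    intro t u ht hu htu hst hsu hd1 hd2
    by_contra hcon
    push Not at hcon
    obtain ⟨K, hK⟩ := hall_exists (G := L) {t, u} inferInstance
    have hFC : Frob.IsFC K := by
      refine Frob.isFC_of_fpf le_normalizer_of_normal hV fun x hx x1 v hv hc => ?_
      by_contra v1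
      have hvo : orderOf v = s := orderOf_eq_prime (hVe.2 v hv) v1
      obtain ⟨w, hw, hwd⟩ := Nat.exists_prime_and_dvd (mt orderOf_eq_one_iff.1 x1)
      have hw' := hK.1 w hw (hwd.trans (K.orderOf_dvd_natCard hx))
      have hsw : s ≠ w := by rcases hw' with rfl | rfl <;> assumption
      obtain ⟨g, hg⟩ := exists_orderOf_eq_of_subgroup (Frob.exists_orderOf_eq_mul_of_commute
        (show Commute x v from hc).symm ((Nat.coprime_primes hs hw).2 hsw) (hvo ▸ dvd_rfl) hwd)
      rcases hw' with rfl | rfl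
      · exact hcon.1 g hg
      · exact hcon.2.1 g hg
    obtain ⟨g, hg⟩ := exists_orderOf_eq_of_subgroup (exists_orderOf_eq_of_subgroup
      (exists_orderOf_eq_mul_of_isFC inferInstance hFC ht hu htu
        (dvd_card_of_isPiHall hK ht (by simp) hd1) (dvd_card_of_isPiHall hK hu (by simp) hd2)))
    exact hcon.2.2 g hg
  rcases hL.1 s hs hsd with rfl | rfl | rfl
  · exact key q r hq hr hqr hpq hpr h2' h3'
  · rcases key p r hp hr hpr hpq.symm hqr h1' h3' with h | h | h
    · exact Or.inl (by rwa [mul_comm])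
    · exact Or.inr (Or.inr h)
    · exact Or.inr (Or.inl h)
  · rcases key p q hp hq hpq hpr.symm hqr.symm h1' h2' with h | h | h
    · exact Or.inr (Or.inl (by rwa [mul_comm]))
    · exact Or.inr (Or.inr (by rwa [mul_comm]))
    · exact Or.inl h

end Cfsg.Agent.Coprime
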