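import Mathlib
import Cfsg.Agent.Lib.Coprime.PiSep
import Cfsg.Agent.Lib.Cls.Basic
import Cfsg.Agent.Lib.Core.MinNormal
import Cfsg.Agent.Lib.Core.Subnormal

/-!
# The lower `π`-series and two-generated subgroups (Powell)
-/

set_option autoImplicit false

namespace Cfsg.Agent.Coprime

open Subgroup

universe u

variable {G : Type*} [Group G] {G' : Type*} [Group G']

/-- The subgroup generated by the `π`-elements of `H`. -/
def piGen (π : Set ℕ) (H : Subgroup G) : Subgroup G :=
  closure {x | x ∈ H ∧ IsPiNum π (orderOf x)}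

/-- `π, π', π, π', …`. -/
def alt (π : Set ℕ) : ℕ → Set ℕ
  | 0 => π
  | k + 1 => (alt π k)ᶜ

/-- The lower series `H ≥ O^{π'}(H) ≥ O^π(O^{π'}(H)) ≥ …`. -/
def lowSer (π : Set ℕ) (H : Subgroup G) : ℕ → Subgroup G
  | 0 => H
  | k + 1 => piGen (alt π k) (lowSer π H k)

theorem alt_eq_or (π : Set ℕ) (k : ℕ) : alt π k = π ∨ alt π k = πᶜ := by
  induction k with
  | zero => exact Or.inl rfl
  | succ k ih =>
    rcases ih with h | h
    · right; rw [alt, h]
    · left; rw [alt, h, compl_compl]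

theorem piGen_le (π : Set ℕ) (H : Subgroup G) : piGen π H ≤ H :=
  (closure_le _).2 fun _ hx => hx.1

theorem mem_piGen {π : Set ℕ} {H : Subgroup G} {x : G} (hx : x ∈ H)
    (h : IsPiNum π (orderOf x)) : x ∈ piGen π H :=
  subset_closure ⟨hx, h⟩

theorem piGen_mono (π : Set ℕ) {H K : Subgroup G} (h : H ≤ K) : piGen π H ≤ piGen π K :=
  closure_mono fun _ hx => ⟨h hx.1, hx.2⟩

theorem map_piGen [Finite G] (π : Set ℕ) (H : Subgroup G) (f : G →* G') :
    (piGen π H).map f = piGen π (H.map f) := by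
  rw [piGen, MonoidHom.map_closure]
  apply le_antisymm
  · apply Subgroup.closure_mono
    rintro _ ⟨x, hx, rfl⟩
    exact ⟨⟨x, hx.1, rfl⟩, hx.2.of_dvd (orderOf_map_dvd f x)⟩
  · apply Subgroup.closure_mono
    rintro _ ⟨⟨x, hx, rfl⟩, h⟩
    obtain ⟨u, hu, h1, h2⟩ := Cls.exists_pi_lift π f x h
    exact ⟨u, ⟨zpowers_le.2 hx hu, h2⟩, h1⟩

theorem isPiNum_card_of_forall [Finite G] {π : Set ℕ} {H : Subgroup G}
    (h : ∀ x ∈ H, IsPiNum π (orderOf x)) : IsPiNum π (Nat.card H) := by
  intro q hq hd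
  have : Fact q.Prime := ⟨hq⟩
  obtain ⟨x, hx, ho⟩ := Core.exists_mem_orderOf_eq_of_dvd_card hd
  exact h x hx q hq (ho ▸ dvd_rfl)

theorem IsPiNum.orderOf_of_mem {π : Set ℕ} {H : Subgroup G} (h : IsPiNum π (Nat.card H)) {x : G}
    (hx : x ∈ H) : IsPiNum π (orderOf x) :=
  h.of_dvd (H.orderOf_dvd_natCard hx)

theorem piGen_eq_bot_iff [Finite G] {π : Set ℕ} {H : Subgroup G} :
    piGen π H = ⊥ ↔ IsPiNum πᶜ (Nat.card H) := by
  constructor
  · intro h q hq hd hπ
    have : Fact q.Prime := ⟨hq⟩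
    obtain ⟨x, hx, ho⟩ := Core.exists_mem_orderOf_eq_of_dvd_card hd
    have h1 : x ∈ piGen π H := mem_piGen hx fun r hr hd => by
      rwa [(Nat.prime_dvd_prime_iff_eq hr hq).1 (ho ▸ hd)]
    rw [h, mem_bot] at h1
    rw [h1, orderOf_one] at ho
    exact hq.one_lt.ne ho
  · intro h
    rw [piGen, closure_eq_bot_iff]
    intro x hx
    exact orderOf_eq_one_iff.1 (hx.2.eq_one (h.orderOf_of_mem hx.1))

theorem piGen_eq_bot_of_le [Finite G] {π : Set ℕ} {H N : Subgroup G} (h : piGen π H ≤ N)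
    (hN : IsPiNum πᶜ (Nat.card N)) : piGen π H = ⊥ := by
  rw [piGen, closure_eq_bot_iff]
  intro x hx
  exact orderOf_eq_one_iff.1 (hx.2.eq_one (hN.orderOf_of_mem (h (mem_piGen hx.1 hx.2))))

theorem lowSer_succ_le (π : Set ℕ) (H : Subgroup G) (k : ℕ) : lowSer π H (k + 1) ≤ lowSer π H k :=
  piGen_le _ _

theorem lowSer_antitone (π : Set ℕ) (H : Subgroup G) : Antitone (lowSer π H) :=
  antitone_nat_of_succ_le (lowSer_succ_le π H)

theorem lowSer_le (π : Set ℕ) (H : Subgroup G) (k : ℕ) : lowSer π H k ≤ H :=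
  lowSer_antitone π H (Nat.zero_le k)

theorem lowSer_mono (π : Set ℕ) {H K : Subgroup G} (h : H ≤ K) (k : ℕ) :
    lowSer π H k ≤ lowSer π K k := by
  induction k with
  | zero => exact h
  | succ k ih => exact piGen_mono _ ih

theorem map_lowSer [Finite G] (π : Set ℕ) (H : Subgroup G) (f : G →* G') (k : ℕ) :
    (lowSer π H k).map f = lowSer π (H.map f) k := by
  induction k with
  | zero => rfl
  | succ k ih => rw [lowSer, map_piGen, ih, lowSer]

theorem normalizer_le_normalizer_lowSer [Finite G] (π : Set ℕ) (H : Subgroup G) (k : ℕ) :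
    normalizer (H : Set G) ≤ normalizer (lowSer π H k : Set G) := by
  intro g hg
  rw [← Core.map_conj_eq_iff] at hg ⊢
  rw [map_lowSer, hg]

theorem le_normalizer_lowSer [Finite G] (π : Set ℕ) (H : Subgroup G) (k : ℕ) :
    H ≤ normalizer (lowSer π H k : Set G) :=
  le_normalizer.trans (normalizer_le_normalizer_lowSer π H k)

instance lowSer_normal [Finite G] (π : Set ℕ) (H : Subgroup G) [H.Normal] (k : ℕ) :
    (lowSer π H k).Normal :=
  Core.normal_iff_top_le_normalizer.2
    (le_normalizer_of_normal.trans (normalizer_le_normalizer_lowSer π H k))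

theorem map_lowSer_top_subtype [Finite G] (π : Set ℕ) (H : Subgroup G) (k : ℕ) :
    (lowSer π (⊤ : Subgroup H) k).map H.subtype = lowSer π H k := by
  rw [map_lowSer, ← MonoidHom.range_eq_map, range_subtype]

theorem lowSer_eq_bot_of_le [Finite G] {π : Set ℕ} {H N : Subgroup G} {k : ℕ}
    (h : lowSer π H k ≤ N) (hN : IsPiNum π (Nat.card N) ∨ IsPiNum πᶜ (Nat.card N)) :
    lowSer π H (k + 2) = ⊥ := by
  have h' : IsPiNum (alt π k) (Nat.card N) ∨ IsPiNum (alt π k)ᶜ (Nat.card N) := by
    rcases alt_eq_or π k with e | e <;> rw [e]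
    · exact hN
    · rw [compl_compl]; exact hN.symm
  rcases h' with h' | h'
  · exact piGen_eq_bot_of_le ((lowSer_antitone π H (Nat.le_add_right k 2)).trans h)
      (by rw [alt, compl_compl]; exact h')
  · have : lowSer π H (k + 1) = ⊥ := piGen_eq_bot_of_le ((lowSer_succ_le π H k).trans h) h'
    exact le_bot_iff.1 (this ▸ lowSer_succ_le π H (k + 1))

theorem exists_lowSer_top_eq_bot (π : Set ℕ) (G : Type u) [Group G] [Finite G] :
    IsPiSeparable π G → ∃ k, lowSer π (⊤ : Subgroup G) k = ⊥ := by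
  refine Core.induction_on_card
    (P := fun G _ _ => IsPiSeparable π G → ∃ k, lowSer π (⊤ : Subgroup G) k = ⊥) ?_ G
  intro G _ _ ih h
  rcases subsingleton_or_nontrivial G with hs | hs
  · exact ⟨0, Subsingleton.elim _ _⟩
  obtain ⟨N, hN, hb, hc⟩ := h.exists_normal
  obtain ⟨k, hk⟩ := ih (G ⧸ N) (Core.card_quotient_lt hb) (h.quotient N)
  refine ⟨k + 2, lowSer_eq_bot_of_le ?_ hc⟩
  rw [← map_top_of_surjective _ (QuotientGroup.mk'_surjective N), ← map_lowSer,
    Core.map_mk_eq_bot_iff] at hk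
  exact hk

theorem exists_lowSer_eq_bot [Finite G] {π : Set ℕ} {H : Subgroup G} (h : IsPiSeparable π H) :
    ∃ k, lowSer π H k = ⊥ := by
  obtain ⟨k, hk⟩ := exists_lowSer_top_eq_bot π H h
  exact ⟨k, by rw [← map_lowSer_top_subtype, hk, Subgroup.map_bot]⟩

theorem eq_of_le_of_le_sup {M A B : Subgroup G} [M.Normal] (hAB : A ≤ B) (hB : B ≤ M ⊔ A)
    (h : M ⊓ B = ⊥) : B = A := by
  refine le_antisymm (fun y hy => ?_) hAB
  obtain ⟨m, hm, a, ha, rfl⟩ := mem_sup_of_normal_left.1 (hB hy)
  have : m ∈ M ⊓ B := ⟨hm, by simpa using B.mul_mem hy (B.inv_mem (hAB ha))⟩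
  rw [h, mem_bot] at this
  simpa [this] using ha

/-- A `p`-solvable group has a two-generated subgroup whose lower `p`-series is as long. -/
theorem exists_pair_lowSer_ne_bot {p : ℕ} [hp : Fact p.Prime] (G : Type u) [Group G] [Finite G] :
    IsPiSeparable {p} G → ∀ k, lowSer {p} (⊤ : Subgroup G) k ≠ ⊥ →
      ∃ a b : G, lowSer {p} (closure {a, b}) k ≠ ⊥ := by
  refine Core.induction_on_card (P := fun G _ _ => IsPiSeparable {p} G →
    ∀ k, lowSer {p} (⊤ : Subgroup G) k ≠ ⊥ → ∃ a b : G, lowSer {p} (closure {a, b}) k ≠ ⊥) ?_ G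
  intro G _ _ ih h k hk
  by_contra hcon
  push Not at hcon
  have hsub : ∀ K : Subgroup G, K ≠ ⊤ → lowSer {p} K k = ⊥ := by
    intro K hK
    by_contra hne
    obtain ⟨a, b, hab⟩ := ih K (Core.card_lt_of_ne_top hK) (h.subgroup K) k fun e =>
      hne (by rw [← map_lowSer_top_subtype, e, Subgroup.map_bot])
    apply hab
    rw [← map_eq_bot_iff_of_injective _ K.subtype_injective, map_lowSer, MonoidHom.map_closure,
      Set.image_pair]
    exact hcon _ _
  have hquo : ∀ (N : Subgroup G) [N.Normal], N ≠ ⊥ → ∀ j, ¬ lowSer {p} ⊤ j ≤ N →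
      ∃ a b : G, ¬ lowSer {p} (closure {a, b}) j ≤ N := by
    intro N _ hN j hj
    obtain ⟨a, b, hab⟩ := ih (G ⧸ N) (Core.card_quotient_lt hN) (h.quotient N) j fun e => hj (by
      rwa [← map_top_of_surjective _ (QuotientGroup.mk'_surjective N), ← map_lowSer,
        Core.map_mk_eq_bot_iff] at e)
    obtain ⟨a, rfl⟩ := QuotientGroup.mk'_surjective N a
    obtain ⟨b, rfl⟩ := QuotientGroup.mk'_surjective N b
    refine ⟨a, b, fun hle => hab ?_⟩
    rwa [← Set.image_pair, ← MonoidHom.map_closure, ← map_lowSer, Core.map_mk_eq_bot_iff]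
  have hmin : ∀ (N : Subgroup G) [N.Normal], N ≠ ⊥ → lowSer {p} ⊤ k ≤ N := by
    intro N _ hN
    by_contra hle
    obtain ⟨a, b, hab⟩ := hquo N hN k hle
    exact hab (by rw [hcon]; exact bot_le)
  have hnt : Nontrivial G := by
    by_contra hs
    rw [not_nontrivial_iff_subsingleton] at hs
    exact hk (Subsingleton.elim _ _)
  rcases k with _ | _ | i
  · obtain ⟨a, ha⟩ := exists_ne (1 : G)
    have : a ∈ lowSer {p} (closure {a, a}) 0 := subset_closure (Set.mem_insert _ _)
    rw [hcon] at this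
    exact ha this
  · apply hk
    rw [lowSer, piGen, closure_eq_bot_iff]
    intro a ha
    have : a ∈ lowSer {p} (closure {a, a}) (0 + 1) :=
      mem_piGen (subset_closure (Set.mem_insert _ _)) ha.2
    rwa [hcon] at this
  set j := i + 1 with hj
  set ρ := alt {p} j with hρ
  set M := lowSer {p} (⊤ : Subgroup G) (j + 1) with hM
  set D := lowSer {p} (⊤ : Subgroup G) j with hD
  have hMD : M ≤ D := lowSer_succ_le _ _ _
  have hsepρ : IsPiSeparable ρ G := by
    rcases alt_eq_or {p} j with e | e <;> rw [hρ, e]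
    exacts [h, h.compl]
  have hMρ : IsPiNum ρ (Nat.card M) := by
    obtain ⟨N, hN, hb, hc⟩ := hsepρ.exists_normal
    rcases hc with hc | hc
    · exact hc.of_dvd (card_dvd_of_le (hmin N hb))
    · exact absurd (piGen_eq_bot_of_le (hmin N hb) hc) hk
  have hDM : ¬ D ≤ M := fun hle => hk (le_bot_iff.1 (hMD.trans (piGen_eq_bot_of_le hle hMρ).le))
  have F1 : ∀ K : Subgroup G, lowSer {p} K (j + 1) = ⊥ → IsPiNum ρᶜ (Nat.card (lowSer {p} K j)) :=
    fun K hK => piGen_eq_bot_iff.1 hK
  have F2 : ∀ K : Subgroup G, M ⊔ K = ⊤ → M ⊔ lowSer {p} K j = D := by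
    intro K hK
    have e : (lowSer {p} K j).map (QuotientGroup.mk' M) = D.map (QuotientGroup.mk' M) := by
      have e' := congrArg (map (QuotientGroup.mk' M)) hK
      rw [Subgroup.map_sup, (Core.map_mk_eq_bot_iff M M).2 le_rfl, bot_sup_eq] at e'
      rw [map_lowSer, map_lowSer, e']
    have := congrArg (comap (QuotientGroup.mk' M)) e
    rwa [comap_map_eq, comap_map_eq, QuotientGroup.ker_mk', sup_eq_left.2 hMD, sup_comm] at this
  have F3 : ∀ K : Subgroup G, lowSer {p} K (j + 1) = ⊥ → ∀ m ∈ M, m ∈ K →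
      ∀ x ∈ lowSer {p} K j, m * x = x * m := by
    intro K hK m hm hmK x hx
    have h1 : m * x * m⁻¹ * x⁻¹ ∈ lowSer {p} K j :=
      mul_mem ((mem_normalizer_iff.1 (le_normalizer_lowSer _ K j hmK) x).1 hx) (inv_mem hx)
    have h2 : m * x * m⁻¹ * x⁻¹ ∈ M := by
      have := mul_mem hm ((inferInstance : M.Normal).conj_mem _ (inv_mem hm) x)
      simpa [mul_assoc] using this
    have h3 : m * x * m⁻¹ * x⁻¹ ∈ lowSer {p} K (j + 1) := mem_piGen h1 (hMρ.orderOf_of_mem h2)
    rw [hK, mem_bot, mul_inv_eq_one, mul_inv_eq_iff_eq_mul] at h3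
    exact h3
  obtain ⟨a, b, hab⟩ := hquo M hk j hDM
  set L := closure ({a, b} : Set G) with hL
  set Q := lowSer {p} L j with hQ
  have hQρ : IsPiNum ρᶜ (Nat.card Q) := F1 L (hcon a b)
  have hQD : Q ≤ D := lowSer_mono _ le_top _
  have hnc : ¬ M ≤ centralizer (Q : Set G) := by
    intro hle
    apply hab
    intro x hx
    have h0 : piCore ρᶜ D = ⊥ := by
      by_contra hne
      have h1 := hmin ((piCore ρᶜ D).map D.subtype)
        (by rwa [Ne, map_eq_bot_iff_of_injective _ D.subtype_injective])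
      exact hk (piGen_eq_bot_of_le h1 (Core.mem_of_dvd_card_piCoreOf D))
    have h1 : ∀ y ∈ piCore ρ D, (y : G) ∈ M := fun y hy =>
      mem_piGen y.2 (by
        rw [Subgroup.orderOf_coe]
        exact IsPiNum.orderOf_of_mem (Core.mem_of_dvd_card_piCore ρ) hy)
    refine h1 ⟨x, hQD hx⟩ (centralizer_piCore_le (hsepρ.subgroup D) h0 fun y hy => ?_)
    exact Subtype.ext (hle (h1 y hy) x hx).symm
  have hML : M ⊔ L = ⊤ := by
    by_contra hne
    exact hnc fun m hm x hx => (F3 _ (hsub _ hne) m hm (mem_sup_left hm) x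
      (lowSer_mono _ le_sup_right _ hx)).symm
  have hMmin : Core.IsMinNormal M :=
    ⟨inferInstance, hk, fun K hK hKM => or_iff_not_imp_left.2 fun hb => le_antisymm hKM (hmin K hb)⟩
  have hcop : (Nat.card M).Coprime (Nat.card Q) := hMρ.coprime hQρ
  have hMs : Group.IsSolvable M := by
    rcases alt_eq_or {p} j with e | e
    · rw [hρ, e] at hMρ
      exact isSolvable_of_isPGroup (Core.isPGroup_iff_forall_prime_dvd.2 hMρ)
    by_contra hns
    apply hnc
    have hp' : ∀ K : Subgroup G, IsPiNum ρᶜ (Nat.card K) → IsPGroup p K := fun K hK => by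
      rw [hρ, e, compl_compl] at hK
      exact Core.isPGroup_iff_forall_prime_dvd.2 hK
    refine le_of_forall_isSylowIn fun q hq hd => ?_
    have : Fact q.Prime := ⟨hq⟩
    obtain ⟨R, hR, hQR⟩ := exists_invariant_sylow q (A := Q) (G := M) le_normalizer_of_normal
      hcop.symm (Or.inl (isSolvable_of_isPGroup (hp' Q hQρ)))
    refine ⟨R, hR, ?_⟩
    set N := normalizer (R : Set G) with hN
    have hNt : N ≠ ⊤ := by
      intro hN'
      have : R.Normal := Core.normal_iff_top_le_normalizer.2 hN'.ge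
      have hRb : R ≠ ⊥ := by
        rintro rfl
        exact hR.2.2 (by simpa using hd)
      exact hns (isSolvable_of_le (hmin R hRb) (isSolvable_of_isPGroup hR.2.1))
    have hMN : M ⊔ N = ⊤ := by
      have := hR.frattini_argument (G := ⊤) le_top le_normalizer_of_normal
      rwa [top_inf_eq] at this
    set E := lowSer {p} N j with hE
    have hEp : IsPGroup p E := hp' E (F1 N (hsub N hNt))
    have hQE : IsPGroup p (Q ⊔ E : Subgroup G) :=
      (hp' Q hQρ).to_sup_of_normal_right' hEp (hQR.trans (le_normalizer_lowSer _ N j))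
    have h1 : Q ⊔ E = E := by
      refine eq_of_le_of_le_sup (M := M) le_sup_right ?_ ?_
      · rw [F2 N hMN]
        exact sup_le hQD (lowSer_mono _ le_top _)
      · refine inf_eq_bot_of_coprime' (hMρ.coprime ?_)
        rw [hρ, e, compl_compl]
        exact Core.isPGroup_iff_forall_prime_dvd.1 hQE
    intro r hr x hx
    exact (F3 N (hsub N hNt) r (hR.1 hr) (le_normalizer hr) x (h1.le (mem_sup_left hx))).symm
  have hMc := hMmin.isMulCommutative hMs
  set N := normalizer (Q : Set G) with hN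
  have hLN : L ≤ N := le_normalizer_lowSer _ _ _
  have hMN : M ⊓ N = ⊥ := by
    by_contra hne
    have : (M ⊓ N).Normal := by
      rw [Core.normal_iff_top_le_normalizer, ← hML]
      refine sup_le ?_ ?_
      · exact (le_centralizer_iff_isMulCommutative.2 hMc).trans
          ((centralizer_le (inf_le_left : M ⊓ N ≤ M)).trans (centralizer_le_normalizer _))
      · exact Core.le_normalizer_inf le_normalizer_of_normal (hLN.trans le_normalizer)
    have h1 : M ≤ N := (hmin _ hne).trans inf_le_right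
    apply hnc
    intro m hm x hx
    have h2 : m * x * m⁻¹ * x⁻¹ ∈ M ⊓ Q := ⟨by
      have := M.mul_mem hm ((inferInstance : M.Normal).conj_mem _ (M.inv_mem hm) x)
      simpa [mul_assoc] using this,
      Q.mul_mem ((mem_normalizer_iff.1 (h1 hm) x).1 hx) (Q.inv_mem hx)⟩
    rw [inf_eq_bot_of_coprime' hcop, mem_bot, mul_inv_eq_one, mul_inv_eq_iff_eq_mul] at h2
    exact h2.symm
  have hMn : M.Normal := inferInstance
  have key : ∀ m ∈ M, ∀ n ∈ M, ∃ t ∈ M, t * a * t⁻¹ * a⁻¹ = m ∧ t * b * t⁻¹ * b⁻¹ = n := by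
    intro m hm n hn
    set X := closure ({m * a, n * b} : Set G) with hX
    have haX : m * a ∈ X := subset_closure (Set.mem_insert _ _)
    have hbX : n * b ∈ X := subset_closure (Set.mem_insert_of_mem _ rfl)
    have hMX : M ⊔ X = ⊤ := by
      rw [eq_top_iff, ← hML]
      refine sup_le le_sup_left ((closure_le _).2 ?_)
      rintro y (rfl | rfl)
      · simpa using (M ⊔ X).mul_mem (mem_sup_left (inv_mem hm)) (mem_sup_right haX)
      · simpa using (M ⊔ X).mul_mem (mem_sup_left (inv_mem hn)) (mem_sup_right hbX)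
    have hXρ := F1 X (hcon _ _)
    obtain ⟨t, ht, hle⟩ := sz_le_conj (N := M) (A := Q) (B := lowSer {p} X j)
      le_normalizer_of_normal (by rw [F2 L hML]; exact lowSer_mono _ le_top _) hcop
      (hMρ.coprime hXρ) (Or.inl hMs)
    have heq : Q.map (MulAut.conj t).toMonoidHom = lowSer {p} X j := by
      refine eq_of_le_of_le_sup (M := M) hle ?_ ?_
      · rw [F2 X hMX]
        refine (map_mono hQD).trans ?_
        rw [map_conj_eq_of_mem (hMD ht)]
      · exact inf_eq_bot_of_coprime' (by rwa [card_map_conj])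
    have aux : ∀ c ∈ L, ∀ s ∈ M, s * c ∈ X → t * c * t⁻¹ * c⁻¹ = s := by
      intro c hc s hs hsc
      have h1 : s * c ∈ N.map (MulAut.conj t).toMonoidHom := by
        rw [hN, map_normalizer_eq_of_bijective _ (MulAut.conj t).bijective]
        have := le_normalizer_lowSer {p} X j hsc
        rw [← heq] at this
        exact this
      rw [mem_map_conj_iff] at h1
      have h2 : t⁻¹ * (s * c) * t * c⁻¹ ∈ M ⊓ N := ⟨by
        have := M.mul_mem (M.mul_mem (M.inv_mem ht) hs) (hMn.conj_mem _ ht c)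
        simpa [mul_assoc] using this, N.mul_mem h1 (N.inv_mem (hLN hc))⟩
      rw [hMN, mem_bot] at h2
      have h3 : s * c = t * c * t⁻¹ := by
        calc s * c = t * (t⁻¹ * (s * c) * t * c⁻¹) * c * t⁻¹ := by group
          _ = t * c * t⁻¹ := by rw [h2]; group
      rw [← h3]; group
    exact ⟨t, ht, aux a (subset_closure (Set.mem_insert _ _)) m hm haX,
      aux b (subset_closure (Set.mem_insert_of_mem _ rfl)) n hn hbX⟩
  have hcm : ∀ (t : M) (c : G), (t : G) * c * (t : G)⁻¹ * c⁻¹ ∈ M := fun t c => by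
    have := mul_mem t.2 (hMn.conj_mem _ (inv_mem t.2) c)
    simpa [mul_assoc] using this
  have hsurj : Function.Surjective fun t : M => ((⟨_, hcm t a⟩, ⟨_, hcm t b⟩) : M × M) := by
    rintro ⟨m, n⟩
    obtain ⟨t, ht, h1, h2⟩ := key m m.2 n n.2
    exact ⟨⟨t, ht⟩, Prod.ext (Subtype.ext h1) (Subtype.ext h2)⟩
  have h1 := Nat.card_le_card_of_surjective _ hsurj
  rw [Nat.card_prod] at h1
  have h2 := (one_lt_card_iff_ne_bot M).2 hk
  nlinarith

/-- The elements `d` such that `d g` is a `π`-element for all `π`-elements `g`. -/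
def piStab [Finite G] (π : Set ℕ) : Subgroup G where
  carrier := {d | ∀ g : G, IsPiNum π (orderOf g) → IsPiNum π (orderOf (d * g))}
  one_mem' := by intro g hg; simpa using hg
  mul_mem' := by
    intro a b ha hb g hg
    rw [mul_assoc]
    exact ha _ (hb g hg)
  inv_mem' := by
    intro a ha
    have hpow : ∀ n : ℕ, ∀ g : G, IsPiNum π (orderOf g) → IsPiNum π (orderOf (a ^ n * g)) := by
      intro n
      induction n with
      | zero => intro g hg; simpa using hg
      | succ n ih =>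
        intro g hg
        rw [pow_succ', mul_assoc]
        exact ha _ (ih g hg)
    have hinv : a⁻¹ = a ^ (orderOf a - 1) := by
      have hpos := orderOf_pos a
      rw [inv_eq_iff_mul_eq_one, ← pow_succ']
      rw [Nat.sub_add_cancel hpos, pow_orderOf_eq_one]
    intro g hg
    rw [hinv]
    exact hpow _ g hg

instance piStab_normal [Finite G] (π : Set ℕ) : (piStab π : Subgroup G).Normal := by
  refine ⟨fun a ha x g hg => ?_⟩
  have h1 : IsPiNum π (orderOf (x⁻¹ * g * x)) := by
    have : orderOf (x⁻¹ * g * x) = orderOf g := by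
      have := (MulAut.conj x⁻¹).orderOf_eq g
      simpa using this
    rwa [this]
  have h2 := ha _ h1
  have : orderOf (x * a * x⁻¹ * g) = orderOf (a * (x⁻¹ * g * x)) := by
    have := (MulAut.conj x).orderOf_eq (a * (x⁻¹ * g * x))
    rw [← this]
    congr 1
    simp [mul_assoc]
  rwa [this]

theorem isPiNum_orderOf_of_mem_piStab [Finite G] {π : Set ℕ} {d : G} (h : d ∈ piStab π) :
    IsPiNum π (orderOf d) := by
  simpa using h 1 (by simpa using isPiNum_one π)

theorem piStab_le_piCore [Finite G] (π : Set ℕ) : (piStab π : Subgroup G) ≤ piCore π G :=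
  Core.le_piCore (isPiNum_card_of_forall fun _ => isPiNum_orderOf_of_mem_piStab)

/-- If `d` lies in a `π`-subgroup normalized by `g`, for every `π`-element `g`, then
`d ∈ O_π(G)`. -/
theorem mem_piCore_of_forall [Finite G] {π : Set ℕ} {d : G}
    (h : ∀ g : G, IsPiNum π (orderOf g) → ∃ D : Subgroup G, d ∈ D ∧ IsPiNum π (Nat.card D) ∧
      g ∈ normalizer (D : Set G)) : d ∈ piCore π G := by
  refine piStab_le_piCore π fun g hg => ?_
  obtain ⟨D, hd, hD, hn⟩ := h g hg
  have h1 : IsPiNum π (Nat.card (D ⊔ zpowers g : Subgroup G)) := by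
    refine (hg.mul hD).of_dvd ?_
    rw [sup_comm, ← Nat.card_zpowers]
    exact Core.card_sup_dvd_of_le_normalizer (zpowers_le.2 hn)
  exact h1.orderOf_of_mem (mul_mem (mem_sup_left hd) (mem_sup_right (mem_zpowers g)))

/-- **Powell**: if all three-generated subgroups are `p`-solvable, then `O_p(G) ≠ 1` or
`O_{p'}(G) ≠ 1`. -/
theorem piCore_ne_bot_of_forall_triple [Finite G] [Nontrivial G] {p : ℕ} [Fact p.Prime]
    (h : ∀ a b c : G, IsPiSeparable {p} (closure {a, b, c} : Subgroup G)) :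
    piCore {p} G ≠ ⊥ ∨ piCore {p}ᶜ G ≠ ⊥ := by
  have h2 : ∀ x : G × G, ∃ k, lowSer {p} (closure {x.1, x.2}) k = ⊥ := fun x =>
    exists_lowSer_eq_bot ((h x.1 x.2 1).of_le (closure_mono (by
      rintro y (rfl | rfl) <;> simp)))
  choose f hf using h2
  obtain ⟨K, hK⟩ := (Set.finite_range f).bddAbove
  have hex : ∃ k, (∃ a b : G, lowSer {p} (closure {a, b}) k ≠ ⊥) ∧
      ∀ a b : G, lowSer {p} (closure {a, b}) (k + 1) = ⊥ := by
    by_contra hcon
    push Not at hcon
    have : ∀ k, ∃ a b : G, lowSer {p} (closure {a, b}) k ≠ ⊥ := by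
      intro k
      induction k with
      | zero =>
        obtain ⟨a, ha⟩ := exists_ne (1 : G)
        refine ⟨a, a, fun e => ha ?_⟩
        have : a ∈ lowSer {p} (closure {a, a}) 0 := subset_closure (Set.mem_insert _ _)
        rwa [e] at this
      | succ k ih => exact hcon k ih
    obtain ⟨a, b, hab⟩ := this K
    exact hab (le_bot_iff.1 (hf (a, b) ▸ lowSer_antitone _ _ (hK ⟨(a, b), rfl⟩)))
  obtain ⟨k, ⟨a, b, hab⟩, hk⟩ := hex
  obtain ⟨e, he, he1⟩ := (Subgroup.bot_or_exists_ne_one _).resolve_left hab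
  have : e ∈ piCore (alt {p} k)ᶜ G := by
    refine mem_piCore_of_forall fun g _ => ?_
    set H := closure ({a, b, g} : Set G) with hH
    refine ⟨lowSer {p} H k, lowSer_mono _ (closure_mono (by rintro y (rfl | rfl) <;> simp)) k he,
      piGen_eq_bot_iff.1 ?_, le_normalizer_lowSer _ _ _ (subset_closure (by simp))⟩
    change lowSer {p} H (k + 1) = ⊥
    by_contra hne
    obtain ⟨c, d, hcd⟩ := exists_pair_lowSer_ne_bot H (h a b g) (k + 1) fun e =>
      hne (by rw [← map_lowSer_top_subtype, e, Subgroup.map_bot])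
    apply hcd
    rw [← map_eq_bot_iff_of_injective _ H.subtype_injective, map_lowSer, MonoidHom.map_closure,
      Set.image_pair]
    exact hk _ _
  rcases alt_eq_or {p} k with e' | e' <;> rw [e'] at this
  · exact Or.inr fun hb => he1 (by rwa [hb] at this)
  · rw [compl_compl] at this
    exact Or.inl fun hb => he1 (by rwa [hb] at this)

end Cfsg.Agent.Coprime
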