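import Mathlib
import Cfsg.Agent.Lib.Transfer.HallWielandt
import Cfsg.Agent.Lib.Core.TwoConj
import Cfsg.Agent.Lib.PGrp.Frattini

/-!
# Tate's theorem: `P ∩ N ≤ Φ(P)` implies that `N` has a normal `p`-complement
-/

set_option autoImplicit false

namespace Cfsg.Agent.Coprime

open Subgroup
open scoped commutatorElement

variable {G : Type*} [Group G] [Finite G] {p : ℕ} [hp : Fact p.Prime]

/-- The kernel of a map to `ZMod p` which is additive on `S`. -/
def addKer (S : Subgroup G) (F : G → ZMod p) (h : ∀ x ∈ S, ∀ y ∈ S, F (x * y) = F x + F y) :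
    Subgroup G where
  carrier := {x | x ∈ S ∧ F x = 0}
  one_mem' := ⟨S.one_mem, Transfer.addChar_one h⟩
  mul_mem' := fun {x y} hx hy => ⟨S.mul_mem hx.1 hy.1, by rw [h x hx.1 y hy.1, hx.2, hy.2, add_zero]⟩
  inv_mem' := fun {x} hx => ⟨S.inv_mem hx.1, by
    have := h x hx.1 x⁻¹ (S.inv_mem hx.1)
    rwa [mul_inv_cancel, Transfer.addChar_one h, hx.2, zero_add, eq_comm] at this⟩

theorem addChar_inv {S : Subgroup G} {F : G → ZMod p}
    (h : ∀ x ∈ S, ∀ y ∈ S, F (x * y) = F x + F y) {x : G} (hx : x ∈ S) : F x⁻¹ = - F x := by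
  have := h x hx x⁻¹ (S.inv_mem hx)
  rw [mul_inv_cancel, Transfer.addChar_one h] at this
  exact eq_neg_of_add_eq_zero_right this.symm

theorem commutator_le_addKer {S : Subgroup G} {F : G → ZMod p}
    (h : ∀ x ∈ S, ∀ y ∈ S, F (x * y) = F x + F y) : ⁅S, S⁆ ≤ addKer S F h := by
  rw [commutator_le]
  intro x hx y hy
  refine ⟨commutator_le_self S (commutator_mem_commutator hx hy), ?_⟩
  rw [commutatorElement_def, h _ (mul_mem (mul_mem hx hy) (inv_mem hx)) _ (inv_mem hy),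
    h _ (mul_mem hx hy) _ (inv_mem hx), h _ hx _ hy, addChar_inv h hx, addChar_inv h hy]
  ring

theorem pow_mem_addKer {S : Subgroup G} {F : G → ZMod p}
    (h : ∀ x ∈ S, ∀ y ∈ S, F (x * y) = F x + F y) {x : G} (hx : x ∈ S) : x ^ p ∈ addKer S F h :=
  ⟨pow_mem hx p, by rw [Transfer.addChar_pow h hx, ZMod.natCast_self, zero_mul]⟩

theorem pResidualOf_le_addKer {S : Subgroup G} {F : G → ZMod p}
    (h : ∀ x ∈ S, ∀ y ∈ S, F (x * y) = F x + F y) : pResidualOf p S ≤ addKer S F h := by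
  refine Core.pResidualOf_le_of_forall fun g hg hc => ⟨hg, ?_⟩
  have h1 := Transfer.addChar_pow h hg (orderOf g)
  rw [pow_orderOf_eq_one, Transfer.addChar_one h, eq_comm, mul_eq_zero,
    ZMod.natCast_eq_zero_iff] at h1
  exact h1.resolve_left (hp.out.coprime_iff_not_dvd.1 hc.symm)

theorem tate_core {K P : Subgroup G} [hKn : K.Normal]
    (hKP : K ⊔ P = ⊤) (hP : IsPGroup p P) (hi : ¬ p ∣ P.index) (hK : K ≤ pResidualOf p K)
    (hΦ : ∀ S : Subgroup G, ⁅P, P⁆ ≤ S → (∀ x ∈ P, x ^ p ∈ S) → P ⊓ K ≤ S) : P ⊓ K = ⊥ := by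
  classical
  by_contra hne
  have hne' : K.subgroupOf P ≠ ⊥ := fun e => hne (by
    rw [inf_comm, ← subgroupOf_map_subtype, e, Subgroup.map_bot])
  obtain ⟨Ψ₀, h1, h2, q, hq, hq0⟩ := Transfer.exists_invariant_character hP hne'
  let Ψ : G → ZMod p := fun g => if hg : g ∈ P then Ψ₀ ⟨g, hg⟩ else 0
  have hΨ1 : ∀ x ∈ P ⊓ K, ∀ y ∈ P ⊓ K, Ψ (x * y) = Ψ x + Ψ y := fun x hx y hy => by
    simp only [Ψ, dif_pos (mem_inf.1 hx).1, dif_pos (mem_inf.1 hy).1,
      dif_pos (P.mul_mem hx.1 hy.1)]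
    exact h1 ⟨x, hx.1⟩ hx.2 ⟨y, hy.1⟩ hy.2
  have hΨ2 : ∀ x ∈ P ⊓ K, ∀ h ∈ P, Ψ (h * x * h⁻¹) = Ψ x := fun x hx h hh => by
    simp only [Ψ, dif_pos (mem_inf.1 hx).1,
      dif_pos (P.mul_mem (P.mul_mem hh hx.1) (P.inv_mem hh))]
    have := h2 ⟨x, hx.1⟩ hx.2 ⟨h, hh⟩⁻¹
    rw [inv_inv] at this
    exact this
  have := Fintype.ofFinite (G ⧸ P)
  have ht : ∀ ω : G ⧸ P, ∃ t ∈ K, (t : G ⧸ P) = ω := by
    intro ω
    obtain ⟨g, rfl⟩ := QuotientGroup.mk_surjective ω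
    obtain ⟨k, hk, x, hx, rfl⟩ := mem_sup_of_normal_left.1 (hKP ▸ mem_top g : g ∈ K ⊔ P)
    exact ⟨k, hk, QuotientGroup.eq.2 (by simpa using hx)⟩
  choose t htK ht using ht
  have hu : ∀ (g : G) (ω : G ⧸ P), (t (g • ω))⁻¹ * g * t ω ∈ P := fun g ω => by
    rw [mul_assoc, ← QuotientGroup.eq, ht, ← smul_eq_mul g, ← MulAction.Quotient.smul_mk, ht]
  have hm : ∀ (g x : G) (ω : G ⧸ P), x ∈ P → g * x⁻¹ ∈ K →
      (t (g • ω))⁻¹ * g * t ω * x⁻¹ ∈ P ⊓ K := fun g x ω hx hg =>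
    ⟨P.mul_mem (hu g ω) (P.inv_mem hx), by
      have := K.mul_mem (K.mul_mem (K.inv_mem (htK (g • ω))) hg) (hKn.conj_mem _ (htK ω) x)
      simpa [mul_assoc] using this⟩
  let F : G → G → ZMod p := fun g x => ∑ ω, Ψ ((t (g • ω))⁻¹ * g * t ω * x⁻¹)
  have hF : ∀ g x h y : G, x ∈ P → g * x⁻¹ ∈ K → y ∈ P → h * y⁻¹ ∈ K →
      F (g * h) (x * y) = F g x + F h y := by
    intro g x h y hx hg hy hh
    have e : F g x = ∑ ω, Ψ ((t (g • h • ω))⁻¹ * g * t (h • ω) * x⁻¹) :=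
      (Fintype.sum_equiv (MulAction.toPerm h) _ _ fun _ => rfl).symm
    rw [e, ← Finset.sum_add_distrib]
    refine Finset.sum_congr rfl fun ω _ => ?_
    have h3 := hm h y ω hy hh
    rw [← hΨ2 _ h3 x hx, ← hΨ1 _ (hm g x _ hx hg) _ ⟨P.mul_mem (P.mul_mem hx h3.1) (P.inv_mem hx),
      hKn.conj_mem _ h3.2 x⟩, mul_smul]
    congr 1
    group
  have hq' : (q : G) ∈ P ⊓ K := ⟨q.2, hq⟩
  have a1 : ∀ x ∈ K, ∀ y ∈ K, F (x * y) 1 = F x 1 + F y 1 := fun x hx y hy => by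
    have := hF x 1 y 1 P.one_mem (by simpa using hx) P.one_mem (by simpa using hy)
    rwa [mul_one] at this
  have a2 : ∀ x ∈ P, ∀ y ∈ P, F (x * y) (x * y) = F x x + F y y := fun x hx y hy =>
    hF x x y y hx (by simp) hy (by simp)
  have e1 : F q 1 = 0 := (pResidualOf_le_addKer (F := fun g => F g 1) a1 (hK hq)).2
  have e2 : F q q = 0 := (hΦ (addKer P (fun g => F g g) a2) (commutator_le_addKer a2)
    (fun x hx => pow_mem_addKer a2 hx) hq').2
  have e3 := hF q 1 1 q P.one_mem (by simpa using hq'.2) q.2 (by simpa using hq'.2)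
  rw [mul_one, one_mul, e1, e2, zero_add] at e3
  have e4 : F 1 q = (P.index : ZMod p) * (- Ψ q) := by
    simp only [F, one_smul, mul_one, inv_mul_cancel, one_mul, Finset.sum_const, Finset.card_univ,
      nsmul_eq_mul, addChar_inv hΨ1 hq', index, Nat.card_eq_fintype_card]
  rw [e4, eq_comm, mul_eq_zero, ZMod.natCast_eq_zero_iff, neg_eq_zero] at e3
  refine hq0 ?_
  simpa only [Ψ, dif_pos q.2] using e3.resolve_left hi

/-- **Tate**, for `K = O^p(K)` normalized by a `p`-subgroup `P` that is Sylow in `KP`. -/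
theorem tate_of_le_pResidualOf {K P : Subgroup G}
    (hn : P ≤ normalizer (K : Set G)) (hP : IsSylowIn p P (K ⊔ P)) (hK : K ≤ pResidualOf p K)
    (hΦ : P ⊓ K ≤ (frattini P).map P.subtype) : ¬ p ∣ Nat.card K := by
  set H := K ⊔ P with hH
  have hKH : K ≤ H := le_sup_left
  have hPH : P ≤ H := le_sup_right
  have hHK : H ≤ normalizer (K : Set G) := sup_le le_normalizer hn
  have : (K.subgroupOf H).Normal := normal_subgroupOf_of_le_normalizer hHK
  have h1 : P.subgroupOf H ⊓ K.subgroupOf H = ⊥ := by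
    refine tate_core ?_ hP.2.1.comap_subtype hP.2.2 ?_ fun S h1 h2 => ?_
    · rw [← subgroupOf_sup hKH hPH, subgroupOf_self]
    · rw [← map_le_map_iff_of_injective H.subtype_injective,
        Core.map_pResidualOf_of_injective H.subtype_injective, map_subgroupOf_eq_of_le hKH]
      exact hK
    · have h3 : (frattini P).map P.subtype ≤ S.map H.subtype := by
        refine (PGrp.map_frattini_subtype_le_iff hP.2.1).2 ⟨?_, fun x hx => ?_⟩
        · rw [← map_subgroupOf_eq_of_le hPH, ← map_commutator]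
          exact map_mono h1
        · exact ⟨_, h2 ⟨x, hPH hx⟩ hx, rfl⟩
      intro x hx
      exact (mem_map_iff_mem H.subtype_injective).1 (h3 (hΦ ⟨hx.1, hx.2⟩))
  have h2 : P ⊓ K = ⊥ := by
    rw [eq_bot_iff]
    intro x hx
    have : (⟨x, hPH hx.1⟩ : H) ∈ P.subgroupOf H ⊓ K.subgroupOf H := ⟨hx.1, hx.2⟩
    rw [h1, mem_bot] at this
    exact congrArg Subtype.val this
  have h3 := (hP.inf_of_le_normalizer hKH hHK).2.2
  rwa [h2, relIndex_bot_left] at h3

/-- **Tate**: if `P` normalizes `N`, is Sylow in `NP` and `P ∩ N ≤ Φ(P)`, then `O^p(N)` is a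
`p'`-group. -/
theorem tate {N P : Subgroup G}
    (hn : P ≤ normalizer (N : Set G)) (hP : IsSylowIn p P (N ⊔ P))
    (hΦ : P ⊓ N ≤ (frattini P).map P.subtype) : ¬ p ∣ Nat.card (pResidualOf p N) :=
  tate_of_le_pResidualOf (hn.trans (Core.normalizer_le_normalizer_pResidualOf N))
    (hP.mono le_sup_right (sup_le_sup_right (Core.pResidualOf_le N) P))
    (Core.pResidualOf_le_of_forall fun _ hg hc =>
      Core.mem_pResidualOf (Core.mem_pResidualOf hg hc) hc)
    ((inf_le_inf_left P (Core.pResidualOf_le N)).trans hΦ)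

theorem hasNormalPComplement_of_inf_le_frattini (P : Sylow p G)
    {N : Subgroup G} (hn : (P : Subgroup G) ≤ normalizer (N : Set G))
    (hΦ : (P : Subgroup G) ⊓ N ≤ (frattini P).map (P : Subgroup G).subtype) :
    HasNormalPComplement p N := by
  have := tate hn ((isSylowIn_top P).mono le_sup_right le_top) hΦ
  rwa [pResidualOf, Core.card_map_subtype, ← Transfer.hasNormalPComplement_iff_not_dvd_pResidual]
    at this

end Cfsg.Agent.Coprime
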