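import Mathlib
import Cfsg.Agent.S3751
import Cfsg.Agent.Lib.Coprime.StableSolv
import Cfsg.Agent.Lib.Coprime.Goldschmidt
import Cfsg.Agent.Lib.Coprime.Powell
import Cfsg.Agent.Lib.Coprime.Generate
import Cfsg.Agent.Lib.Core.PLocal
import Cfsg.Agent.Lib.PGrp.Critical
import Cfsg.Agent.Lib.Transfer.Kegel
import Cfsg.Agent.Lib.Transfer.ThompsonJ
import Cfsg.Agent.Lib.Char.Burnside
import Cfsg.Agent.Lib.Frob.Kernel
import Cfsg.Agent.Lib.Cls.Basic

/-!
# A minimal simple group is generated by two elements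

Hence a finite group in which any two elements generate a solvable subgroup is solvable
(Thompson; Flavell).
-/

set_option autoImplicit false

namespace Cfsg.Agent.Coprime

open Subgroup Cfsg.Agent.Core
open scoped commutatorElement

universe u

variable {G : Type*} [Group G] [Finite G] {p : ℕ}

theorem exists_frattini_pPrimeCore [Fact p.Prime] (h : IsPSolvable p G) {S : Subgroup G}
    (hS : IsSylowIn p S ⊤) : ∃ T ≤ S, S ⊓ centralizer (S : Set G) ≤ T ∧
      pPrimeCore p G ⊔ normalizer (T : Set G) = ⊤ := by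
  have h1 := hS.inf_of_le_normalizer (N := pPrimePCore p G) le_top le_normalizer_of_normal
  refine ⟨_, inf_le_left, le_inf inf_le_left (inf_le_right.trans ((centralizer_le
    (inf_le_left : S ⊓ pPrimePCore p G ≤ S)).trans (centralizer_le_pPrimePCore h h1))), ?_⟩
  have h2 := h1.map (QuotientGroup.mk' (pPrimeCore p G))
  rw [Core.map_pPrimePCore] at h2
  have h3 := h2.eq_of_le h2.1 le_rfl (Core.isPGroup_pCore p)
  have h4 := h1.frattini_argument le_top le_normalizer_of_normal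
  rw [top_inf_eq] at h4
  refine top_le_iff.1 (h4.ge.trans (sup_le ?_ le_sup_right))
  have h5 : pPrimePCore p G ≤ ((S ⊓ pPrimePCore p G).map
      (QuotientGroup.mk' (pPrimeCore p G))).comap (QuotientGroup.mk' _) := by
    rw [← h3]; exact le_rfl
  rw [comap_map_eq, QuotientGroup.ker_mk', sup_comm] at h5
  exact h5.trans (sup_le_sup_left le_normalizer _)

theorem exists_frattini_pPrimeCoreOf [Fact p.Prime] {H S : Subgroup G} (h : IsPSolvable p H)
    (hS : IsSylowIn p S H) : ∃ T ≤ S, S ⊓ centralizer (S : Set G) ≤ T ∧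
      H ≤ pPrimeCoreOf p H ⊔ (H ⊓ normalizer (T : Set G)) := by
  obtain ⟨P, -, rfl⟩ := hS.exists_sylow
  obtain ⟨T, h1, h2, h3⟩ := exists_frattini_pPrimeCore h (isSylowIn_top P)
  refine ⟨_, map_mono (f := H.subtype) h1, ?_, ?_⟩
  · rintro _ ⟨⟨x, hx, rfl⟩, hc⟩
    exact ⟨x, h2 ⟨hx, fun y hy => Subtype.ext (hc _ ⟨y, hy, rfl⟩)⟩, rfl⟩
  · have := congrArg (map H.subtype) h3
    rw [Subgroup.map_sup, ← MonoidHom.range_eq_map, range_subtype] at this
    exact this.ge.trans (sup_le_sup_left (le_inf (map_subtype_le _) (le_normalizer_map _)) _)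

theorem le_of_le_sup_of_coprime {E K P : Subgroup G} (hn : P ≤ normalizer (K : Set G))
    (hE : E ≤ K ⊔ P) (hc : (Nat.card E).Coprime (Nat.card P)) : E ≤ K := by
  have := Core.normal_subgroupOf_of_le_normalizer (sup_le le_normalizer hn : K ⊔ P ≤ _)
  have h1 : (K.subgroupOf (K ⊔ P)).index ∣ Nat.card P := by
    have h2 := card_sup_dvd_of_le_normalizer hn
    rw [sup_comm, ← (K.subgroupOf (K ⊔ P)).index_mul_card,
      Core.card_subgroupOf_of_le le_sup_left] at h2
    exact Nat.dvd_of_mul_dvd_mul_right Nat.card_pos h2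
  have h3 := le_of_coprime_card_index (H := E.subgroupOf (K ⊔ P)) (N := K.subgroupOf (K ⊔ P))
    (by rw [Core.card_subgroupOf_of_le hE]; exact hc.coprime_dvd_right h1)
  exact fun x hx => h3 (x := ⟨x, hE hx⟩) hx

omit [Finite G] in
theorem centralizer_le_normalizer_zpowers (x : G) :
    centralizer ({x} : Set G) ≤ normalizer (zpowers x : Set G) := by
  rw [← Cls.centralizer_zpowers]; exact centralizer_le_normalizer _

theorem zpowers_eq_of_mem_prime (hp : p.Prime) {d z : G} (hd : orderOf d = p) (hz : z ∈ zpowers d)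
    (h1 : z ≠ 1) : zpowers z = zpowers d := by
  refine eq_of_le_of_card_ge (zpowers_le.2 hz) ?_
  rw [Nat.card_zpowers, Nat.card_zpowers, hd]
  rcases (Nat.dvd_prime hp).1 (hd ▸ orderOf_dvd_of_mem_zpowers hz) with e | e
  · exact absurd (orderOf_eq_one_iff.1 e) h1
  · exact e.ge

/-- A minimal simple group that is not generated by two elements. -/
structure TwoGen (G : Type*) [Group G] : Prop where
  sol : ∀ H : Subgroup G, H ≠ ⊤ → Group.IsSolvable H
  simple : ∀ N : Subgroup G, N.Normal → N ≠ ⊤ → N = ⊥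
  pair : ∀ a b : G, closure ({a, b} : Set G) ≠ ⊤
  nsol : ¬ Group.IsSolvable G

/-- `M` is strongly `p`-embedded and `d` is an element of order `p` of `Z(O_p(M))`. -/
structure Pt (p : ℕ) (M : Subgroup G) (d : G) : Prop where
  ord : orderOf d = p
  mem : d ∈ pCoreOf p M
  cent : pCoreOf p M ≤ centralizer {d}
  ne_top : M ≠ ⊤
  emb : ∀ g x : G, x ∈ M → orderOf x = p → g * x * g⁻¹ ∈ M → g ∈ M

namespace Pt

variable {M : Subgroup G} {d : G}

theorem conj (h : Pt p M d) (g : G) : Pt p (M.map (MulAut.conj g).toMonoidHom) (g * d * g⁻¹) where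
  ord := by rw [← h.ord]; exact MulEquiv.orderOf_eq (MulAut.conj g) d
  mem := by rw [pCoreOf_map_conj]; exact mem_map_of_mem _ h.mem
  cent := by
    rw [pCoreOf_map_conj]
    rintro _ ⟨x, hx, rfl⟩
    have := mem_centralizer_singleton_iff.1 (h.cent hx)
    rw [mem_centralizer_singleton_iff]
    simp only [MulEquiv.toMonoidHom_eq_coe, MonoidHom.coe_coe, MulAut.conj_apply, conj_mul, this]
  ne_top := fun e => h.ne_top (eq_top_iff.2 fun x _ => by
    simpa [mul_assoc] using mem_map_conj.1 (e.ge (mem_top (g * x * g⁻¹))))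
  emb := fun k x hx ho hk => by
    rw [mem_map_conj] at hx hk ⊢
    refine h.emb _ _ hx ?_ (by simpa [mul_assoc] using hk)
    rw [← ho]; simpa using MulEquiv.orderOf_eq (MulAut.conj g⁻¹) x

theorem mem' (h : Pt p M d) : d ∈ M := pCoreOf_le M h.mem

variable [hp : Fact p.Prime]

theorem ne_one (h : Pt p M d) : d ≠ 1 := fun e => hp.out.one_lt.ne (by rw [← h.ord, e, orderOf_one])

theorem isPGroup (h : Pt p M d) : IsPGroup p (zpowers d) :=
  isPGroup_zpowers_of_orderOf (k := 1) (by rw [h.ord, pow_one])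

theorem normalizer_le (h : Pt p M d) {X : Subgroup G} (hX : IsPGroup p X) (h0 : X ≠ ⊥)
    (hM : X ≤ M) : normalizer (X : Set G) ≤ M := fun g hg => by
  obtain ⟨x, hx, ho⟩ := PGrp.exists_orderOf_eq_prime_of_ne_bot hX h0
  exact h.emb g x (hM hx) ho (hM (conj_mem_of_le_normalizer le_rfl hg hx))

theorem centralizer_le (h : Pt p M d) {x : G} (hx : x ^ p = 1) (h0 : x ≠ 1) (hM : x ∈ M) :
    centralizer {x} ≤ M :=
  (centralizer_le_normalizer_zpowers x).trans (h.normalizer_le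
    (isPGroup_zpowers_of_pow_eq_one (k := 1) (by rwa [pow_one])) (mt zpowers_eq_bot.1 h0)
    (zpowers_le.2 hM))

theorem pow_eq_one (h : Pt p M d) : d ^ p = 1 := h.ord ▸ pow_orderOf_eq_one d

theorem centralizer_le' (h : Pt p M d) : centralizer {d} ≤ M :=
  h.centralizer_le h.pow_eq_one h.ne_one h.mem'

theorem normalizer_le' (h : Pt p M d) : normalizer (zpowers d : Set G) ≤ M :=
  h.normalizer_le h.isPGroup (mt zpowers_eq_bot.1 h.ne_one) (zpowers_le.2 h.mem')

theorem le_of_isPGroup (h : Pt p M d) {S : Subgroup G} (hS : IsPGroup p S) (hd : d ∈ S) :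
    S ≤ M := by
  by_contra hle
  have h1 := PGrp.lt_inf_normalizer hS (lt_of_le_of_ne inf_le_left fun e => hle (inf_eq_left.1 e) :
    S ⊓ M < S)
  exact h1.not_ge (inf_le_inf_left _ (h.normalizer_le hS.to_inf_left
    (fun e => h.ne_one (mem_bot.1 (e ▸ mem_inf.2 ⟨hd, h.mem'⟩))) inf_le_right))

theorem inf_le_centralizer (h : Pt p M d) {E : Subgroup G} (hn : d ∈ normalizer (E : Set G))
    (hE : (Nat.card E).Coprime p) : E ⊓ M ≤ centralizer {d} := fun e he => by
  rw [mem_centralizer_singleton_iff, ← commutatorElement_eq_one_iff_mul_comm, ← mem_bot,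
    ← inf_eq_bot_of_isPGroup_of_coprime (isPGroup_pCoreOf M) hE]
  refine ⟨mul_mem (conj_mem_of_le_normalizer (le_normalizer_pCoreOf M) he.2 h.mem)
    (Subgroup.inv_mem _ h.mem), ?_⟩
  have := mul_mem he.1 (conj_mem_of_le_normalizer le_rfl hn (inv_mem he.1))
  simpa [commutatorElement_def, mul_assoc] using this

end Pt

namespace TwoGen

theorem ne_top_of_isPGroup (h : TwoGen G) {r : ℕ} [Fact r.Prime] {A : Subgroup G}
    (hA : IsPGroup r A) : A ≠ ⊤ := fun e =>
  h.nsol (isSolvable_top_iff.1 (e ▸ isSolvable_of_isPGroup hA))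

omit [Finite G] in
theorem normalizer_ne_top (h : TwoGen G) {A : Subgroup G} (h0 : A ≠ ⊥) (h1 : A ≠ ⊤) :
    normalizer (A : Set G) ≠ ⊤ := fun e => h0 (h.simple A (normalizer_eq_top_iff.mp e) h1)

theorem centralizer_ne_top (h : TwoGen G) {r : ℕ} [Fact r.Prime] {d : G} (hd : d ≠ 1)
    (hr : IsPGroup r (zpowers d)) : centralizer ({d} : Set G) ≠ ⊤ := fun e =>
  h.normalizer_ne_top (mt zpowers_eq_bot.1 hd) (h.ne_top_of_isPGroup hr)
    (top_le_iff.1 (e.ge.trans (centralizer_le_normalizer_zpowers d)))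

theorem pPrimeCoreOf_centralizer (h : TwoGen G) {r : ℕ} [hr : Fact r.Prime] {d : G} (hd : d ≠ 1)
    (hdr : IsPGroup r (zpowers d)) : pPrimeCoreOf r (centralizer ({d} : Set G)) = ⊥ := by
  refine eq_bot_iff.2 fun e he => ?_
  set O := pPrimeCoreOf r (centralizer ({d} : Set G)) with hO
  have hOc : (Nat.card O).Coprime r := coprime_card_pPrimeCoreOf _ _
  have hc : Commute d e := (mem_centralizer_singleton_iff.1 (pPrimeCoreOf_le _ he)).symm
  have hco : (orderOf d).Coprime (orderOf e) := by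
    rw [← Nat.card_zpowers d]
    exact Core.coprime_card_of_isPGroup hdr (hOc.coprime_dvd_left (O.orderOf_dvd_natCard he))
  have h1 : e ∈ piCore ({r} : Set ℕ)ᶜ G := mem_piCore_of_forall fun y _ => by
    set H := closure ({d * e, y} : Set G) with hH
    have hde : zpowers (d * e) ≤ H := zpowers_le.2 (subset_closure (by simp))
    have hy : y ∈ H := subset_closure (by simp)
    have h2 := goldschmidt (q := r) (H := H) (Z := zpowers d) (Y := H ⊓ O)
      (isPSolvable_of_isSolvable (h.sol _ (h.pair _ _)))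
      (zpowers_le.2 (hde (Cls.mem_zpowers_mul_left hc hco))) inf_le_left hdr
      (hOc.coprime_dvd_left (card_dvd_of_le inf_le_right))
      (le_centralizer_iff.1 (by
        rw [Cls.centralizer_zpowers]; exact inf_le_right.trans (pPrimeCoreOf_le _)))
      (by
        rw [Cls.centralizer_zpowers]
        exact le_normalizer_inf (inf_le_left.trans le_normalizer)
          (inf_le_right.trans (le_normalizer_pPrimeCoreOf _)))
    exact ⟨_, h2 ⟨hde (Cls.mem_zpowers_mul_right hc hco), he⟩,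
      (isPiNum_compl_singleton_iff hr.out).2 (coprime_card_pPrimeCoreOf _ _),
      le_normalizer_pPrimeCoreOf H hy⟩
  refine (h.simple (piCore ({r} : Set ℕ)ᶜ G) inferInstance (fun e' => ?_)).le h1
  have h3 := (isPiNum_compl_singleton_iff hr.out).1
    (mem_of_dvd_card_piCore (G := G) ({r} : Set ℕ)ᶜ)
  exact hd (mem_bot.1 (inf_eq_bot_of_isPGroup_of_coprime hdr h3 ▸
    mem_inf.2 ⟨mem_zpowers d, e'.ge (mem_top d)⟩))

theorem isCharIn_centralizer (h : TwoGen G) {r : ℕ} [hr : Fact r.Prime] {d : G} (hd : d ≠ 1)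
    (hdr : IsPGroup r (zpowers d)) : IsCharIn r (centralizer ({d} : Set G)) :=
  isCharIn_of_isPSolvable (isPSolvable_of_isSolvable (h.sol _ (h.centralizer_ne_top hd hdr)))
    (h.pPrimeCoreOf_centralizer hd hdr)

theorem isCharIn_normalizer (h : TwoGen G) {r : ℕ} [hr : Fact r.Prime] {R : Subgroup G}
    (hR : IsPGroup r R) (h0 : R ≠ ⊥) : IsCharIn r (normalizer (R : Set G)) := by
  refine isCharIn_of_isPSolvable (isPSolvable_of_isSolvable (h.sol _
    (h.normalizer_ne_top h0 (h.ne_top_of_isPGroup hR)))) (eq_bot_iff.2 ?_)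
  obtain ⟨⟨z, hz⟩, hz1⟩ := ne_bot_iff_exists_ne_one.1
    (PGrp.inf_centralizer_ne_bot hR hR le_normalizer h0)
  have hz1' : z ≠ 1 := fun e => hz1 (Subtype.ext e)
  have hzr : IsPGroup r (zpowers z) := hR.to_le (zpowers_le.2 hz.1)
  have hY := coprime_card_pPrimeCoreOf r (normalizer (R : Set G))
  have hRY : R ≤ centralizer (pPrimeCoreOf r (normalizer (R : Set G)) : Set G) :=
    le_centralizer_of_coprime_of_le_normalizer (le_normalizer.trans (le_normalizer_pPrimeCoreOf _))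
      (pPrimeCoreOf_le _) (Core.coprime_card_of_isPGroup hR hY)
  rw [← h.pPrimeCoreOf_centralizer hz1' hzr]
  exact goldschmidt (isPSolvable_of_isSolvable (h.sol _ (h.centralizer_ne_top hz1' hzr)))
    (fun x hx => mem_centralizer_singleton_iff.2 (hz.2 x hx))
    (fun y hy => mem_centralizer_singleton_iff.2 (hRY hz.1 y hy)) hR hY hRY
    (inf_le_right.trans ((centralizer_le_normalizer _).trans (le_normalizer_pPrimeCoreOf _)))

theorem exists_pt (h : TwoGen G) : ∃ (p : ℕ) (_ : Fact p.Prime) (M : Subgroup G) (d : G),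
    p ≠ 2 ∧ Pt p M d := by
  obtain ⟨p, hp, hd, hp5⟩ : ∃ p : ℕ, p.Prime ∧ p ∣ Nat.card G ∧ 5 ≤ p := by
    by_contra! hc
    refine h.nsol (Char.solvable_of_two_primes Nat.prime_two Nat.prime_three fun r hr hd => ?_)
    have h1 := hc r hr hd
    have h2 := hr.two_le
    interval_cases r
    · exact Or.inl rfl
    · exact Or.inr rfl
    · exact absurd hr (by decide)
  have := Fact.mk hp
  have h0 : pCore p G = ⊥ := h.simple _ inferInstance (h.ne_top_of_isPGroup (isPGroup_pCore p))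
  obtain ⟨x, hx⟩ := exists_prime_orderOf_dvd_card' p hd
  have hx1 : zpowers x ≠ ⊥ := fun e => hp.one_lt.ne (by rw [← hx, zpowers_eq_bot.1 e, orderOf_one])
  obtain ⟨M, hM, -⟩ := exists_isMaximalPLocal_ge
    (isPGroup_zpowers_of_orderOf (k := 1) (by rw [hx, pow_one])) hx1
  have hst : ∀ M : Subgroup G, centralizer (pCore p M : Set M) ≤ pCore p M → PStab p M :=
    fun M hM => pStab_of_isPSolvable hp5 (isPSolvable_of_isSolvable (h.sol _ fun e => by
      have h1 := isCharIn_iff.2 hM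
      rw [e, isCharIn_top_iff, h0] at h1
      exact h.ne_top_of_isPGroup (r := p) IsPGroup.of_bot
        (top_le_iff.1 ((le_centralizer_iff.1 bot_le).trans h1))))
  rcases S3751.result ⟨hd, fun T hT h1 => isCharIn_iff.1 (h.isCharIn_normalizer hT h1)⟩ h0 with
    ⟨M₁, M₂, hne, hP, c₁, c₂, hQ⟩ | hs
  · exact (no_primitive_pair hne hP (isCharIn_iff.2 c₁) (isCharIn_iff.2 c₂)
      (le_sup_left.trans (hQ.trans inf_le_right)) (le_sup_right.trans (hQ.trans inf_le_left))
      (hst _ c₁) (hst _ c₂)).elim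
  obtain ⟨h1, -, h2⟩ := hs M hM.1 hM.2
  have h3 : pCoreOf p M ≠ ⊥ := fun e => h1 (by
    rw [← isMaximalPLocal_normalizer_pCoreOf hM, e]; exact normalizer_eq_top_iff.2 inferInstance)
  have h4 := isPGroup_pCoreOf (p := p) M
  obtain ⟨d, hd, ho⟩ := PGrp.exists_orderOf_eq_prime_of_ne_bot h4.to_inf_left
    (PGrp.inf_centralizer_ne_bot h4 h4 le_normalizer h3)
  refine ⟨p, this, M, d, by omega, ho, hd.1,
    fun y hy => mem_centralizer_singleton_iff.2 (hd.2 y hy), h1, fun g y hy hyo hg => ?_⟩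
  by_contra hgM
  refine h2 g hgM ?_
  have h5 : orderOf (g * y * g⁻¹) = p := by
    rw [← hyo]; exact MulEquiv.orderOf_eq (MulAut.conj g) y
  exact h5 ▸ orderOf_dvd_natCard _ (mem_inf.2 ⟨hg, mem_map_of_mem _ hy⟩)

variable [hp : Fact p.Prime] {M : Subgroup G} {d : G}

theorem not_le (h : TwoGen G) (hd : Pt p M d) {H : Subgroup G} (hH : H ≠ ⊤) (hdH : d ∈ H)
    (hle : ¬ H ≤ M) : ¬ pPrimeCoreOf p H ≤ M := fun hK => by
  obtain ⟨S, hS, hdS⟩ := exists_isSylowIn_ge (zpowers_le.2 hdH) hd.isPGroup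
  obtain ⟨T, h1, h2, h3⟩ := exists_frattini_pPrimeCoreOf
    (isPSolvable_of_isSolvable (h.sol _ hH)) hS
  have h4 : S ≠ ⊥ := fun e => hd.ne_one (mem_bot.1 (e ▸ hdS (mem_zpowers d)))
  exact hle (h3.trans (sup_le hK (inf_le_right.trans (hd.normalizer_le (hS.2.1.to_le h1)
    (fun e => PGrp.inf_centralizer_ne_bot hS.2.1 hS.2.1 le_normalizer h4
      (eq_bot_iff.2 (h2.trans e.le)))
    (h1.trans (hd.le_of_isPGroup hS.2.1 (hdS (mem_zpowers d))))))))

theorem mem_zpowers (h : TwoGen G) (hd : Pt p M d) {H : Subgroup G} (hH : H ≠ ⊤) (hdH : d ∈ H)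
    (hle : ¬ H ≤ M) {x : G} (hx : x ∈ H) (hxp : x ^ p = 1) (hc : x ∈ centralizer {d}) :
    x ∈ zpowers d := by
  by_contra hxd
  have h1 : zpowers x ≤ centralizer (zpowers d : Set G) := by
    rw [Cls.centralizer_zpowers]; exact zpowers_le.2 hc
  have hA := Transfer.isElementaryAbelian_sup (Transfer.isElementaryAbelian_zpowers hxp)
    (Transfer.isElementaryAbelian_zpowers hd.pow_eq_one) h1
  have hAp : IsPGroup p ↥(zpowers x ⊔ zpowers d) :=
    isPGroup_of_forall_mem fun y hy => ⟨1, by rw [pow_one]; exact hA.2 y hy⟩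
  refine h.not_le hd hH hdH hle (le_of_forall_centralizer_le hA.1 (fun hcy => hxd ?_)
    ((sup_le (zpowers_le.2 hx) (zpowers_le.2 hdH)).trans (le_normalizer_pPrimeCoreOf H))
    (Core.coprime_card_of_isPGroup hAp (coprime_card_pPrimeCoreOf p H)) fun a ha h1 =>
      inf_le_right.trans (hd.centralizer_le (hA.2 a ha) h1
        (hd.le_of_isPGroup hAp (mem_sup_right (Subgroup.mem_zpowers d)) ha)))
  obtain ⟨a, ha⟩ := (Subgroup.isCyclic_iff_exists_zpowers_eq_top _).1 hcy
  have h2 : zpowers d = zpowers x ⊔ zpowers d := eq_of_le_of_card_ge le_sup_right (by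
    rw [← ha, Nat.card_zpowers, Nat.card_zpowers, hd.ord]
    exact orderOf_le_of_pow_eq_one hp.out.pos (hA.2 a (ha ▸ Subgroup.mem_zpowers a)))
  exact h2 ▸ mem_sup_left (Subgroup.mem_zpowers x)

theorem le_normalizer_sup (h : TwoGen G) (hd : Pt p M d) {H : Subgroup G} (hH : H ≠ ⊤)
    (hdH : d ∈ H) (hle : ¬ H ≤ M) :
    H ≤ normalizer ((pPrimeCoreOf p H ⊔ zpowers d : Subgroup G) : Set G) := by
  obtain ⟨S, hS, hdS⟩ := exists_isSylowIn_ge (zpowers_le.2 hdH) hd.isPGroup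
  obtain ⟨T, h1, h2, h3⟩ := exists_frattini_pPrimeCoreOf
    (isPSolvable_of_isSolvable (h.sol _ hH)) hS
  have h4 : S ≠ ⊥ := fun e => hd.ne_one (mem_bot.1 (e ▸ hdS (Subgroup.mem_zpowers d)))
  obtain ⟨z, hz, ho⟩ := PGrp.exists_orderOf_eq_prime_of_ne_bot hS.2.1.to_inf_left
    (PGrp.inf_centralizer_ne_bot hS.2.1 hS.2.1 le_normalizer h4)
  have h5 := zpowers_eq_of_mem_prime hp.out hd.ord (h.mem_zpowers hd hH hdH hle (hS.1 hz.1)
    (ho ▸ pow_orderOf_eq_one z) (mem_centralizer_singleton_iff.2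
      (hz.2 d (hdS (Subgroup.mem_zpowers d))).symm))
    (fun e => hp.out.one_lt.ne (by rw [← ho, e, orderOf_one]))
  have h6 : d ∈ S ⊓ centralizer (S : Set G) := zpowers_le.2 hz (h5 ▸ Subgroup.mem_zpowers d)
  refine h3.trans (sup_le (le_sup_left.trans le_normalizer) (Core.le_normalizer_sup
    (inf_le_left.trans (le_normalizer_pPrimeCoreOf H)) fun n hn =>
      mem_normalizer_of_map_conj_le ?_))
  have h7 := h1 (conj_mem_of_le_normalizer le_rfl hn.2 (h2 h6))
  rw [MonoidHom.map_zpowers, zpowers_le]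
  exact h.mem_zpowers hd hH hdH hle (hS.1 h7) (by rw [← map_pow, hd.pow_eq_one, map_one])
    (mem_centralizer_singleton_iff.2 (h6.2 _ h7))

theorem exists_not_commute (h : TwoGen G) {r s : ℕ} [hr : Fact r.Prime] (hs : s.Prime)
    (hrs : s ≠ r) {c d : G} (hc : orderOf c = r) (hd : orderOf d = s) (hcd : d ∈ centralizer {c}) :
    ∃ u ∈ pCoreOf r (centralizer {c}), u ∉ centralizer ({d} : Set G) := by
  by_contra! hu
  have h1 := h.isCharIn_centralizer (d := c) (fun e => hr.out.one_lt.ne (by rw [← hc, e, orderOf_one]))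
    (isPGroup_zpowers_of_orderOf (k := 1) (by rw [hc, pow_one]))
  obtain ⟨k, hk⟩ := exists_orderOf_eq_pow_of_mem (isPGroup_pCoreOf _)
    (h1 (mem_inf.2 ⟨hcd, fun u h2 => mem_centralizer_singleton_iff.1 (hu u h2)⟩))
  exact hrs ((Nat.prime_dvd_prime_iff_eq hs hr.out).1 (hs.dvd_of_dvd_pow (hd.symm.trans hk).dvd))

theorem isPGroup_centralizer (h : TwoGen G) (hp2 : p ≠ 2) (hd : Pt p M d) :
    IsPGroup p (centralizer ({d} : Set G)) := by
  refine isPGroup_iff_forall_prime_dvd.2 fun s hs hsd => by_contra fun hsp => ?_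
  have := Fact.mk hs
  obtain ⟨⟨c, hc⟩, ho⟩ := exists_prime_orderOf_dvd_card' s hsd
  rw [Subgroup.orderOf_mk] at ho
  have hcd : Commute d c := (mem_centralizer_singleton_iff.1 hc).symm
  have hc' : d ∈ centralizer ({c} : Set G) := mem_centralizer_singleton_iff.2 hcd
  obtain ⟨u, hu, hud⟩ := h.exists_not_commute hp.out (Ne.symm hsp) ho hd.ord hc'
  obtain ⟨v, hv, hvc⟩ := h.exists_not_commute hs hsp hd.ord ho hc
  have hsp' : s.Coprime p := (Nat.coprime_primes hs hp.out).2 hsp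
  have hco : (orderOf d).Coprime (orderOf c) := by rw [hd.ord, ho]; exact hsp'.symm
  set H := closure ({d * c, u * v} : Set G) with hH
  have hdc : zpowers (d * c) ≤ H := zpowers_le.2 (subset_closure (by simp))
  have huv : u * v ∈ H := subset_closure (by simp)
  have hdH := hdc (Cls.mem_zpowers_mul_left hcd hco)
  have hcH := hdc (Cls.mem_zpowers_mul_right hcd hco)
  have hle : ¬ H ≤ M := fun hle => hud (hd.inf_le_centralizer (le_normalizer_pCoreOf _ hc')
    (Core.coprime_card_of_isPGroup (isPGroup_pCoreOf _) hsp'.symm) (mem_inf.2 ⟨hu,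
      (M.mul_mem_cancel_right (hd.centralizer_le' (pCoreOf_le _ hv))).1 (hle huv)⟩))
  set Q := H ⊓ pCoreOf p (centralizer ({d} : Set G)) with hQ
  have hQp : IsPGroup p Q := (isPGroup_pCoreOf _).to_inf_right
  have h1 : zpowers c ≤ centralizer (Q : Set G) := PGrp.le_centralizer_of_omega_odd hp2 hQp
    (zpowers_le.2 (le_normalizer_inf (A := H ⊓ centralizer {d}) (inf_le_left.trans le_normalizer)
      (inf_le_right.trans (le_normalizer_pCoreOf _)) (mem_inf.2 ⟨hcH, hc⟩)))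
    (Core.coprime_card_of_isPGroup hQp (by rwa [Nat.card_zpowers, ho])).symm fun x hx hxp => by
      rw [Cls.centralizer_zpowers]
      exact zpowers_le.2 hc' (h.mem_zpowers hd (h.pair _ _) hdH hle hx.1 hxp (pCoreOf_le _ hx.2))
  have huc : u * c = c * u := mem_centralizer_singleton_iff.1 (pCoreOf_le _ hu)
  have hw : v⁻¹ * c * v * c⁻¹ ∈ Q := by
    refine mem_inf.2 ⟨?_, ?_⟩
    · have := mul_mem (mul_mem (mul_mem (inv_mem huv) hcH) huv) (inv_mem hcH)
      rwa [mul_inv_rev, mul_assoc v⁻¹, mul_assoc v⁻¹, ← mul_assoc (u⁻¹ * c), mul_assoc u⁻¹, ← huc,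
        inv_mul_cancel_left, ← mul_assoc] at this
    · have := mul_mem (inv_mem hv) (conj_mem_of_le_normalizer (le_normalizer_pCoreOf _) hc hv)
      simpa [mul_assoc] using this
  have h2 : Commute (v⁻¹ * c * v * c⁻¹) c := h1 (Subgroup.mem_zpowers c) _ hw
  have h3 : (v⁻¹ * c * v * c⁻¹) ^ s = 1 := by
    have e : c ^ s = 1 := ho ▸ pow_orderOf_eq_one c
    have := h2.mul_pow s
    rw [inv_mul_cancel_right, e, mul_one] at this
    rw [← this]
    simpa [e] using conj_pow (i := s) (a := v⁻¹) (b := c)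
  obtain ⟨k, hk⟩ := exists_orderOf_eq_pow_of_mem hQp hw
  have h4 := orderOf_eq_one_iff.1 (Nat.eq_one_of_dvd_coprimes (hsp'.pow_right k)
    (orderOf_dvd_of_pow_eq_one h3) hk.dvd)
  refine hvc (mem_centralizer_singleton_iff.2 ?_)
  rw [mul_inv_eq_one, mul_assoc, inv_mul_eq_iff_eq_mul] at h4
  exact h4.symm

section

variable (h : TwoGen G) (hp2 : p ≠ 2) (hd : Pt p M d)
include h hp2 hd

theorem inf_eq_bot {E : Subgroup G} (hn : d ∈ normalizer (E : Set G))
    (hE : (Nat.card E).Coprime p) : E ⊓ M = ⊥ :=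
  eq_bot_iff.2 ((le_inf (hd.inf_le_centralizer hn hE) inf_le_left).trans
    (inf_eq_bot_of_isPGroup_of_coprime (h.isPGroup_centralizer hp2 hd) hE).le)

theorem isNilpotent {E : Subgroup G} (hn : d ∈ normalizer (E : Set G))
    (hE : (Nat.card E).Coprime p) : Group.IsNilpotent E :=
  Transfer.isNilpotent_of_fixedPointFree hp.out hn hd.pow_eq_one fun k hk e =>
    mem_bot.1 ((h.inf_eq_bot hp2 hd hn hE).le
      ⟨hk, hd.centralizer_le' (mem_centralizer_singleton_iff.2 e)⟩)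

theorem le_core {H E : Subgroup G} (hH : H ≠ ⊤) (hdH : d ∈ H) (hle : ¬ H ≤ M) (hEH : E ≤ H)
    (hn : d ∈ normalizer (E : Set G)) (hE : (Nat.card E).Coprime p) : E ≤ pPrimeCoreOf p H := by
  have hc := Core.coprime_card_of_isPGroup hd.isPGroup hE
  have h1 := centralizer_sup_commutator (zpowers_le.2 hn) hc
    (Or.inl (isSolvable_of_isPGroup hd.isPGroup))
  rw [Cls.centralizer_zpowers, eq_bot_iff.2 ((inf_le_inf_left _ hd.centralizer_le').trans
    (h.inf_eq_bot hp2 hd hn hE).le), bot_sup_eq] at h1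
  refine le_of_le_sup_of_coprime (zpowers_le.2 (le_normalizer_pPrimeCoreOf H hdH)) ?_ hc.symm
  rw [← h1, Subgroup.commutator_comm]
  exact (commutator_mono le_sup_right hEH).trans
    (commutator_le_of_le_normalizer (h.le_normalizer_sup hd hH hdH hle))

theorem eq_of_inf_ne_bot (D : Subgroup G) : ∀ L₁ L₂ : Subgroup G, IsCoatom L₁ → IsCoatom L₂ →
    d ∈ L₁ → d ∈ L₂ → ¬ L₁ ≤ M → ¬ L₂ ≤ M → D ≠ ⊥ → D ≤ pPrimeCoreOf p L₁ ⊓ pPrimeCoreOf p L₂ →
    L₁ = L₂ := by
  induction D using subgroup_induction_gt with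
  | h D ih =>
  intro L₁ L₂ c₁ c₂ d₁ d₂ n₁ n₂ h0 hD
  rcases hD.lt_or_eq with hlt | hD
  · exact ih _ hlt L₁ L₂ c₁ c₂ d₁ d₂ n₁ n₂ (fun e => not_lt_bot (e ▸ hlt)) le_rfl
  have hdD : d ∈ normalizer (D : Set G) := hD ▸ zpowers_le.1 (le_normalizer_inf
    (zpowers_le.2 (le_normalizer_pPrimeCoreOf _ d₁)) (zpowers_le.2 (le_normalizer_pPrimeCoreOf _ d₂)))
  have hDp : (Nat.card D).Coprime p := (coprime_card_pPrimeCoreOf p L₁).coprime_dvd_left
    (card_dvd_of_le (hD.le.trans inf_le_left))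
  obtain ⟨L₃, c₃, h3⟩ := exists_coatom_ge (h.normalizer_ne_top h0 fun e =>
    c₁.1 (top_le_iff.1 (e.ge.trans (hD.le.trans (inf_le_left.trans (pPrimeCoreOf_le _))))))
  have n₃ : ¬ L₃ ≤ M := fun e => h0 (eq_bot_iff.2 ((le_inf le_rfl
    (le_normalizer.trans (h3.trans e))).trans (h.inf_eq_bot hp2 hd hdD hDp).le))
  have key : ∀ L, IsCoatom L → d ∈ L → ¬ L ≤ M → D ≤ pPrimeCoreOf p L → L = L₃ :=
    fun L c dL n hle => by
    have h1 := le_normalizer_pPrimeCoreOf (q := p) L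
    have h2 := coprime_card_pPrimeCoreOf p L
    rcases hle.lt_or_eq with hlt | e
    · have h4 := lt_inf_normalizer_of_isNilpotent (h.isNilpotent hp2 hd (h1 dL) h2) hlt
      exact ih _ h4 L L₃ c c₃ dL (h3 hdD) n n₃ (fun e => not_lt_bot (e ▸ h4)) (le_inf inf_le_left
        (h.le_core hp2 hd c₃.1 (h3 hdD) n₃ (inf_le_right.trans h3) (zpowers_le.1 (le_normalizer_inf
          (zpowers_le.2 (h1 dL)) (zpowers_le.2 (le_normalizer hdD))))
          (h2.coprime_dvd_left (card_dvd_of_le inf_le_left))))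
    · exact ((c.le_iff.1 ((e ▸ h1).trans h3)).resolve_left c₃.1).symm
  exact (key L₁ c₁ d₁ n₁ (hD.le.trans inf_le_left)).trans
    (key L₂ c₂ d₂ n₂ (hD.le.trans inf_le_right)).symm

theorem normalizer_le_coatom {L : Subgroup G} (c : IsCoatom L) (dL : d ∈ L) (n : ¬ L ≤ M) :
    normalizer (zpowers d : Set G) ≤ L := fun x hx => by
  have h1 := le_normalizer_pPrimeCoreOf (q := p) L
  have h2 := coprime_card_pPrimeCoreOf p L
  obtain ⟨u, hu, huM⟩ := SetLike.not_le_iff_exists.1 (h.not_le hd c.1 dL n)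
  obtain ⟨L', c', h3⟩ := exists_coatom_ge (h.pair d (x * u))
  have d' : d ∈ L' := h3 (subset_closure (by simp))
  have xu : x * u ∈ L' := h3 (subset_closure (by simp))
  have n' : ¬ L' ≤ M := fun e => huM ((M.mul_mem_cancel_left (hd.normalizer_le' hx)).1 (e xu))
  have h4 : x⁻¹ * d * x ∈ zpowers d :=
    conj_mem_of_le_normalizer' le_rfl hx (Subgroup.mem_zpowers d)
  have h5 : u⁻¹ * (x⁻¹ * d * x) * u * (x⁻¹ * d * x)⁻¹ ∈ pPrimeCoreOf p L ⊓ L' := by
    refine mem_inf.2 ⟨?_, mul_mem ?_ (inv_mem (zpowers_le.2 d' h4))⟩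
    · have := mul_mem (inv_mem hu) (conj_mem_of_le_normalizer h1 (zpowers_le.2 dL h4) hu)
      simpa only [mul_assoc] using this
    · have := mul_mem (mul_mem (inv_mem xu) d') xu
      simpa only [mul_assoc, mul_inv_rev] using this
  have h6 : pPrimeCoreOf p L ⊓ L' ≠ ⊥ := fun e => by
    rw [e, mem_bot, mul_inv_eq_one, mul_assoc, inv_mul_eq_iff_eq_mul] at h5
    refine huM (hd.centralizer_le (x := x⁻¹ * d * x) ?_ ?_ (zpowers_le.2 hd.mem' h4)
      (mem_centralizer_singleton_iff.2 h5.symm))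
    · simpa [hd.pow_eq_one] using conj_pow (i := p) (a := x⁻¹) (b := d)
    · simpa [mul_assoc, inv_mul_eq_one] using hd.ne_one
  rw [h.eq_of_inf_ne_bot hp2 hd _ L L' c c' dL d' n n' h6 (le_inf inf_le_left
    (h.le_core hp2 hd c'.1 d' n' inf_le_right (zpowers_le.1 (le_normalizer_inf
      (zpowers_le.2 (h1 dL)) (zpowers_le.2 (le_normalizer d'))))
      (h2.coprime_dvd_left (card_dvd_of_le inf_le_left))))] at hu ⊢
  exact (L'.mul_mem_cancel_right (pPrimeCoreOf_le _ hu)).1 xu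

theorem mem_zpowers' {x : G} (hxp : x ^ p = 1) (hc : x ∈ centralizer {d}) : x ∈ zpowers d := by
  obtain ⟨y, -, hy⟩ := SetLike.not_le_iff_exists.1 (mt top_le_iff.1 hd.ne_top)
  obtain ⟨L, c, h3⟩ := exists_coatom_ge (h.pair d y)
  have dL : d ∈ L := h3 (subset_closure (by simp))
  have n : ¬ L ≤ M := fun e => hy (e (h3 (subset_closure (by simp))))
  exact h.mem_zpowers hd c.1 dL n (h.normalizer_le_coatom hp2 hd c dL n
    (centralizer_le_normalizer_zpowers d hc)) hxp hc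

theorem eq_normalizer : M = normalizer (zpowers d : Set G) := by
  refine le_antisymm (fun m hm => mem_normalizer_of_map_conj_le ?_) hd.normalizer_le'
  rw [MonoidHom.map_zpowers, zpowers_le]
  exact h.mem_zpowers' hp2 hd (by rw [← map_pow, hd.pow_eq_one, map_one])
    (hd.cent (conj_mem_of_le_normalizer (le_normalizer_pCoreOf M) hm hd.mem))

theorem not_mem {M' : Subgroup G} {d' : G} (hd' : Pt p M' d') (hne : M ≠ M') : d' ∉ M := fun hm => by
  obtain ⟨⟨z, hz⟩, hz1⟩ := ne_bot_iff_exists_ne_one.1 (PGrp.inf_centralizer_ne_bot hd'.isPGroup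
    hd.isPGroup (zpowers_le.2 (h.eq_normalizer hp2 hd ▸ hm)) (mt zpowers_eq_bot.1 hd.ne_one))
  have h1 := zpowers_eq_of_mem_prime hp.out hd.ord hz.1 fun e => hz1 (Subtype.ext e)
  have h2 : d ∈ centralizer (zpowers d' : Set G) := zpowers_le.2 hz.2 (h1 ▸ Subgroup.mem_zpowers d)
  have h3 := zpowers_eq_of_mem_prime hp.out hd.ord (h.mem_zpowers' hp2 hd hd'.pow_eq_one
    (mem_centralizer_singleton_iff.2 (h2 d' (Subgroup.mem_zpowers d')))) hd'.ne_one
  exact hne (by rw [h.eq_normalizer hp2 hd, h.eq_normalizer hp2 hd', h3])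

theorem coatom_unique {M' : Subgroup G} {d' : G} (hd' : Pt p M' d') (hne : M ≠ M')
    {L L' : Subgroup G} (c : IsCoatom L) (c' : IsCoatom L') (h1 : d ∈ L) (h2 : d' ∈ L)
    (h3 : d ∈ L') (h4 : d' ∈ L') : L = L' := by
  have h5 := h.not_mem hp2 hd hd' hne
  have h6 : d ∈ L ⊓ L' := ⟨h1, h3⟩
  have h7 := le_normalizer_pPrimeCoreOf (q := p) _ h6
  have h8 := coprime_card_pPrimeCoreOf p (L ⊓ L')
  exact h.eq_of_inf_ne_bot hp2 hd _ L L' c c' h1 h3 (fun e => h5 (e h2)) (fun e => h5 (e h4))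
    (fun e => h.not_le hd (fun e => c.1 (top_le_iff.1 (e.ge.trans inf_le_left))) h6
      (fun e => h5 (e ⟨h2, h4⟩)) (e.le.trans bot_le))
    (le_inf (h.le_core hp2 hd c.1 h1 (fun e => h5 (e h2)) ((pPrimeCoreOf_le _).trans inf_le_left)
      h7 h8) (h.le_core hp2 hd c'.1 h3 (fun e => h5 (e h4))
      ((pPrimeCoreOf_le _).trans inf_le_right) h7 h8))

theorem le_coatom {M' : Subgroup G} {d' : G} (hd' : Pt p M' d') (hne : M ≠ M')
    {L : Subgroup G} (c : IsCoatom L) (h1 : d ∈ L) (h2 : d' ∈ L) : M ≤ L :=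
  (h.eq_normalizer hp2 hd).le.trans
    (h.normalizer_le_coatom hp2 hd c h1 fun e => h.not_mem hp2 hd hd' hne (e h2))

theorem mem_of_not_mem {M₂ M₃ L : Subgroup G} {d₂ d₃ : G} (hd₂ : Pt p M₂ d₂) (hd₃ : Pt p M₃ d₃)
    (hne : M ≠ M₂) (c : IsCoatom L) (h1 : d ∈ L) (h2 : d₂ ∈ L) (h3 : d₃ ∉ L) {n : G}
    (n₁ : n ∈ M) (n₂ : n ∈ M₂) : n ∈ M₃ := by
  by_contra n₃
  obtain ⟨A, cA, hA⟩ := exists_coatom_ge (h.pair d d₃)
  obtain ⟨B, cB, hB⟩ := exists_coatom_ge (h.pair d₂ d₃)
  have a₁ : d ∈ A := hA (subset_closure (by simp))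
  have a₃ : d₃ ∈ A := hA (subset_closure (by simp))
  have b₂ : d₂ ∈ B := hB (subset_closure (by simp))
  have b₃ : d₃ ∈ B := hB (subset_closure (by simp))
  have nA := h.le_coatom hp2 hd hd₃
    (fun e => h3 (h.le_coatom hp2 hd hd₂ hne c h1 h2 (e ▸ hd₃.mem'))) cA a₁ a₃ n₁
  have nB := h.le_coatom hp2 hd₂ hd₃
    (fun e => h3 (h.le_coatom hp2 hd₂ hd hne.symm c h2 h1 (e ▸ hd₃.mem'))) cB b₂ b₃ n₂
  have e := h.coatom_unique hp2 hd₃ (hd₃.conj n)
    (fun e => n₃ (hd₃.emb n d₃ hd₃.mem' hd₃.ord (e ▸ (hd₃.conj n).mem'))) cA cB a₃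
    (mul_mem (mul_mem nA a₃) (inv_mem nA)) b₃ (mul_mem (mul_mem nB b₃) (inv_mem nB))
  exact h3 (h.coatom_unique hp2 hd hd₂ hne c cA h1 h2 a₁ (e ▸ b₂) ▸ a₃)

theorem eq_one_of_mem {M₂ : Subgroup G} {d₂ : G} (hd₂ : Pt p M₂ d₂) (hne : M ≠ M₂) {n : G}
    (n₁ : n ∈ M) (n₂ : n ∈ M₂) : n = 1 := by
  obtain ⟨L, c, hL⟩ := exists_coatom_ge (h.pair d d₂)
  have h1 : d ∈ L := hL (subset_closure (by simp))
  have h2 : d₂ ∈ L := hL (subset_closure (by simp))
  have hc : ∀ H : Subgroup G, H ≠ ⊤ → H.normalCore = ⊥ := fun H hH => h.simple _ inferInstance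
    fun e => hH (top_le_iff.1 (e.ge.trans H.normalCore_le))
  obtain ⟨g, hg⟩ : ∃ g : G, g * d * g⁻¹ ∉ L := by
    by_contra! hg
    exact hd.ne_one (mem_bot.1 (hc L c.1 ▸ hg))
  have n₃ := h.mem_of_not_mem hp2 hd hd₂ (hd.conj g) hne c h1 h2 hg n₁ n₂
  obtain ⟨A, cA, hA⟩ := exists_coatom_ge (h.pair d (g * d * g⁻¹))
  have a₁ : d ∈ A := hA (subset_closure (by simp))
  have a₃ : g * d * g⁻¹ ∈ A := hA (subset_closure (by simp))
  refine mem_bot.1 (hc M hd.ne_top ▸ fun k => ?_)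
  have key : n ∈ M.map (MulAut.conj k⁻¹).toMonoidHom := by
    by_cases e₁ : k⁻¹ * d * k⁻¹⁻¹ ∈ L
    · by_cases e₂ : M = M.map (MulAut.conj k⁻¹).toMonoidHom
      · exact e₂ ▸ n₁
      exact h.mem_of_not_mem hp2 hd (hd.conj g) (hd.conj k⁻¹)
        (fun e => hg (h.le_coatom hp2 hd hd₂ hne c h1 h2 (e ▸ (hd.conj g).mem'))) cA a₁ a₃
        (fun e => hg (h.coatom_unique hp2 hd (hd.conj k⁻¹) e₂ cA c a₁ e h1 e₁ ▸ a₃)) n₁ n₃
    · exact h.mem_of_not_mem hp2 hd hd₂ (hd.conj k⁻¹) hne c h1 h2 e₁ n₁ n₂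
  simpa using mem_map_conj.1 key

end

theorem false (h : TwoGen G) : False := by
  obtain ⟨p, hp, M, d, hp2, hd⟩ := h.exists_pt
  have hM : M ≠ ⊥ := fun e => hd.ne_one (mem_bot.1 (e ▸ hd.mem'))
  obtain ⟨K, hK, -, h1, h2⟩ := Frob.exists_kernel ((Frob.isFrobeniusComplement_iff M).2
    ⟨hM, hd.ne_top, fun g hg x hx hx' => h.eq_one_of_mem hp2 hd (hd.conj g)
      (fun e => hg (hd.emb g d hd.mem' hd.ord (e ▸ (hd.conj g).mem'))) hx (mem_map_conj.2 hx')⟩)
  rw [h.simple K hK fun e => hM (by rwa [e, top_inf_eq] at h1), bot_sup_eq] at h2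
  exact hd.ne_top h2

end TwoGen

/-- A finite group in which any two elements generate a solvable subgroup is solvable. -/
theorem isSolvable_of_forall_pair (G : Type u) [Group G] [Finite G] :
    (∀ a b : G, Group.IsSolvable (closure ({a, b} : Set G))) → Group.IsSolvable G := by
  refine Core.induction_on_card (P := fun G _ _ =>
    (∀ a b : G, Group.IsSolvable (closure ({a, b} : Set G))) → Group.IsSolvable G) ?_ G
  intro G _ _ ih h
  have hsub : ∀ H : Subgroup G, H ≠ ⊤ → Group.IsSolvable H := fun H hH =>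
    ih H (card_lt_of_ne_top hH) fun x y => by
      have := h x y
      have e : closure ({(x : G), (y : G)} : Set G) = (closure ({x, y} : Set H)).map H.subtype := by
        rw [MonoidHom.map_closure, Set.image_pair]; rfl
      rw [e] at this
      exact (isSolvable_congr (equivMapOfInjective _ _ H.subtype_injective)).2 this
  by_contra hns
  refine TwoGen.false ⟨hsub, fun N hN h1 => by_contra fun h2 => hns ?_,
    fun a b e => hns (isSolvable_top_iff.1 (e ▸ h a b)), hns⟩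
  have := hsub N h1
  have : Group.IsSolvable (G ⧸ N) := ih _ (card_quotient_lt h2) fun x y => by
    obtain ⟨x, rfl⟩ := QuotientGroup.mk'_surjective N x
    obtain ⟨y, rfl⟩ := QuotientGroup.mk'_surjective N y
    rw [← Set.image_pair, ← MonoidHom.map_closure]
    exact Core.isSolvable_map (h x y) _
  exact Group.isSolvable_of_ker_le_range N.subtype (QuotientGroup.mk' N) (by simp)

end Cfsg.Agent.Coprime
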